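import Cfsg.Agent.BG.AmbHall2

/-! Elements of order three with a single cubic block on an `F₃`-module: linear algebra. -/

set_option autoImplicit false
set_option linter.unusedSectionVars false

namespace Cfsg.Agent.Cub

open Subgroup Module
open scoped commutatorElement

variable {S : Type*} [Group S] {E : Type*} [AddCommGroup E] [Module (ZMod 3) E]
  {ρ : Representation (ZMod 3) S E} {b x y d g : S} {e v : E} {R H : Subgroup S}

theorem three (v : E) : v + v + v = 0 := by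
  have h : ((1 : ZMod 3) + 1 + 1) • v = 0 := by
    rw [show (1 : ZMod 3) + 1 + 1 = 0 from rfl, zero_smul]
  simpa only [add_smul, one_smul] using h

theorem act_mul (g h : S) (v : E) : ρ (g * h) v = ρ g (ρ h v) := by
  rw [map_mul, Module.End.mul_apply]

theorem act_one (v : E) : ρ 1 v = v := by rw [map_one, Module.End.one_apply]

theorem act_inv (g : S) (v : E) : ρ g⁻¹ (ρ g v) = v := by
  rw [← act_mul, inv_mul_cancel, act_one]

theorem act_inv' (g : S) (v : E) : ρ g (ρ g⁻¹ v) = v := by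
  rw [← act_mul, mul_inv_cancel, act_one]

theorem act_ne (g : S) (h : v ≠ 0) : ρ g v ≠ 0 := fun e => h <| by
  rw [← act_inv (ρ := ρ) g v, e, map_zero]

theorem act_comm (h : g * d = x * y) (v : E) : ρ g (ρ d v) = ρ x (ρ y v) := by
  rw [← act_mul, h, act_mul]

theorem zero_of_neg (h : v = -v) : v = 0 := by
  linear_combination (norm := abel) three v - h

/-- The standing hypotheses on `b`. -/
structure Cx (ρ : Representation (ZMod 3) S E) (b : S) : Prop where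
  inj : Function.Injective ρ
  b3 : b * b * b = 1
  rk : finrank (ZMod 3) (LinearMap.range (ρ b - 1)) ≤ 2

theorem Cx.one (c : Cx ρ b) (h : ∀ v, ρ g v = v) : g = 1 :=
  c.inj (by rw [map_one]; exact LinearMap.ext h)

theorem Cx.bbb (c : Cx ρ b) (v : E) : ρ b (ρ b (ρ b v)) = v := by
  rw [← act_mul, ← act_mul, c.b3, act_one]

theorem Cx.dep [Finite E] (c : Cx ρ b) (u v w : E) : ∃ α β γ : ZMod 3, (α ≠ 0 ∨ β ≠ 0 ∨ γ ≠ 0) ∧
    α • (ρ b u - u) + β • (ρ b v - v) + γ • (ρ b w - w) = 0 := by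
  let f : Fin 3 → LinearMap.range (ρ b - 1) :=
    ![⟨_, u, rfl⟩, ⟨_, v, rfl⟩, ⟨_, w, rfl⟩]
  have : ¬ LinearIndependent (ZMod 3) f := fun h => by
    have := h.fintype_card_le_finrank.trans c.rk
    simp at this
  rw [Fintype.not_linearIndependent_iff] at this
  obtain ⟨a, h1, i, hi⟩ := this
  refine ⟨a 0, a 1, a 2, ?_, ?_⟩
  · fin_cases i <;> simp_all
  · have := congrArg Subtype.val h1
    simpa [Fin.sum_univ_three, f] using this

/-- A four-group permuted cyclically by `b`. -/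
structure Four (b x y : S) : Prop where
  ne : x ≠ 1
  sq : x * x = 1
  cm : x * y = y * x
  hx : b * x = y * b
  hy : b * y = x * y * b

theorem Four.y_eq (q : Four b x y) : y = b * x * b⁻¹ := by rw [q.hx, mul_inv_cancel_right]

theorem Four.ysq (q : Four b x y) : y * y = 1 := by
  rw [q.y_eq, show b * x * b⁻¹ * (b * x * b⁻¹) = b * (x * x) * b⁻¹ by group, q.sq]; group

theorem Four.hxy (q : Four b x y) : b * (x * y) = x * b := by
  rw [← mul_assoc, q.hx, mul_assoc, q.hy, q.cm, ← mul_assoc, ← mul_assoc, q.ysq, one_mul]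

theorem Four.yxy (q : Four b x y) : y * (x * y) = x := by
  rw [q.cm, ← mul_assoc, q.ysq, one_mul]

theorem Four.rot (q : Four b x y) : Four b y (x * y) where
  ne := fun h => q.ne <| by
    have := q.hx
    rw [h, one_mul] at this
    exact mul_eq_left.1 this
  sq := q.ysq
  cm := by rw [q.yxy, mul_assoc, q.ysq, mul_one]
  hx := q.hy
  hy := by rw [q.hxy, q.yxy]

theorem wt_zero {c l m n : E} (h : c + l + m + n = 0)
    (c1 : ρ x c = c) (c2 : ρ y c = c) (l1 : ρ x l = l) (l2 : ρ y l = -l)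
    (m1 : ρ x m = -m) (m2 : ρ y m = m) (n1 : ρ x n = -n) (n2 : ρ y n = -n) :
    c = 0 ∧ l = 0 ∧ m = 0 ∧ n = 0 := by
  have h1 := congrArg (ρ x) h
  have h2 := congrArg (ρ y) h
  have h3 := congrArg (ρ x) h2
  simp only [map_add, map_zero, map_neg, c1, c2, l1, l2, m1, m2, n1, n2] at h1 h2 h3
  refine ⟨?_, ?_, ?_, ?_⟩
  · linear_combination (norm := abel) h + h1 + h2 + h3 - three c
  · linear_combination (norm := abel) h + h1 - h2 - h3 - three l
  · linear_combination (norm := abel) h - h1 + h2 - h3 - three m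
  · linear_combination (norm := abel) h - h1 - h2 + h3 - three n

theorem Four.split (q : Four b x y) (v : E) : ∃ c l m n : E, v = c + l + m + n ∧
    ρ x c = c ∧ ρ y c = c ∧ ρ x l = l ∧ ρ y l = -l ∧ ρ x m = -m ∧ ρ y m = m ∧
    ρ x n = -n ∧ ρ y n = -n ∧ ∀ N : Submodule (ZMod 3) E, (∀ w ∈ N, ρ x w ∈ N) →
      (∀ w ∈ N, ρ y w ∈ N) → v ∈ N → c ∈ N ∧ l ∈ N ∧ m ∈ N ∧ n ∈ N := by
  have hx : ∀ w, ρ x (ρ x w) = w := fun w => by rw [← act_mul, q.sq, act_one]
  have hy : ∀ w, ρ y (ρ y w) = w := fun w => by rw [← act_mul, q.ysq, act_one]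
  have hc : ∀ w, ρ y (ρ x w) = ρ x (ρ y w) := act_comm q.cm.symm
  refine ⟨v + ρ x v + ρ y v + ρ x (ρ y v), v + ρ x v - ρ y v - ρ x (ρ y v),
    v - ρ x v + ρ y v - ρ x (ρ y v), v - ρ x v - ρ y v + ρ x (ρ y v), ?_, ?_, ?_, ?_, ?_, ?_, ?_,
    ?_, ?_, fun N h1 h2 hv => ?_⟩
  · linear_combination (norm := abel) - three v
  all_goals first
    | simp only [map_add, map_sub, hx, hy, hc]; abel
    | skip
  have a1 := h1 v hv
  have a2 := h2 v hv
  have a3 := h1 _ a2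
  exact ⟨add_mem (add_mem (add_mem hv a1) a2) a3, sub_mem (sub_mem (add_mem hv a1) a2) a3,
    sub_mem (add_mem (sub_mem hv a1) a2) a3, add_mem (sub_mem (sub_mem hv a1) a2) a3⟩

/-- A frame: a four-group with a weight vector. -/
structure Fr (ρ : Representation (ZMod 3) S E) (b x y : S) (e : E) : Prop where
  q : Four b x y
  ne : e ≠ 0
  xe : ρ x e = e
  ye : ρ y e = -e
  line : ∀ v, ρ x v = v → ρ y v = -v → ∃ a : ZMod 3, v = a • e
  fix : ∀ v, ρ x v = v → ρ y v = v → ρ b v = v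

theorem Four.bx (q : Four b x y) (v : E) : ρ x (ρ b v) = ρ b (ρ x (ρ y v)) := by
  rw [← act_mul, ← q.hxy, act_mul, act_mul]

theorem Four.by' (q : Four b x y) (v : E) : ρ y (ρ b v) = ρ b (ρ x v) := act_comm q.hx.symm v

theorem Fr.rot (f : Fr ρ b x y e) : Fr ρ b y (x * y) (ρ b e) where
  q := f.q.rot
  ne := act_ne b f.ne
  xe := by rw [f.q.by', f.xe]
  ye := by rw [f.q.rot.by', f.ye, map_neg]
  line := fun v h1 h2 => by
    obtain ⟨a, ha⟩ := f.line (ρ b⁻¹ v)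
      (by rw [← act_inv (ρ := ρ) b (ρ x _), ← f.q.by', act_inv', h1])
      (by rw [← act_inv (ρ := ρ) b (ρ y _), ← f.q.rot.by', act_inv', h2, map_neg])
    exact ⟨a, by rw [← map_smul, ← ha, act_inv']⟩
  fix := fun v h1 h2 => f.fix v (by rwa [act_mul, h1] at h2) h1

theorem Fr.x1 (f : Fr ρ b x y e) : ρ x (ρ b e) = -ρ b e := by
  rw [f.q.bx, f.ye, map_neg, f.xe, map_neg]

theorem Fr.y1 (f : Fr ρ b x y e) : ρ y (ρ b e) = ρ b e := f.rot.xe

theorem Fr.x2 (f : Fr ρ b x y e) : ρ x (ρ b (ρ b e)) = -ρ b (ρ b e) := by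
  rw [f.q.bx, f.y1, f.x1, map_neg]

theorem Fr.y2 (f : Fr ρ b x y e) : ρ y (ρ b (ρ b e)) = -ρ b (ρ b e) := by
  rw [f.q.by', f.x1, map_neg]

theorem Fr.line1 (f : Fr ρ b x y e) (h1 : ρ x v = -v) (h2 : ρ y v = v) :
    ∃ a : ZMod 3, v = a • ρ b e := f.rot.line v h2 (by rw [act_mul, h2, h1])

theorem Fr.line2 (f : Fr ρ b x y e) (h1 : ρ x v = -v) (h2 : ρ y v = -v) :
    ∃ a : ZMod 3, v = a • ρ b (ρ b e) :=
  f.rot.line1 h2 (by rw [act_mul, h2, map_neg, h1, neg_neg])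

theorem Cx.frame [Finite E] (c : Cx ρ b) (q : Four b x y) : ∃ e, Fr ρ b x y e := by
  have h0 : ∃ e, e ≠ 0 ∧ ρ x e = e ∧ ρ y e = -e := by
    by_contra! h
    have h' : ∀ e, ρ x e = e → ρ y e = -e → e = 0 := fun e h1 h2 => by
      by_contra h3; exact h e h3 h1 h2
    have h1 : ∀ e, ρ x e = -e → ρ y e = -e → e = 0 := fun e h1 h2 => by
      by_contra h3
      exact act_ne b h3 (h' _ (by rw [q.bx, h2, map_neg, h1, neg_neg]) (by rw [q.by', h1, map_neg]))
    have h2 : ∀ e, ρ x e = -e → ρ y e = e → e = 0 := fun e h2 h3 => by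
      by_contra h4
      exact act_ne b h4 (h1 _ (by rw [q.bx, h3, h2, map_neg]) (by rw [q.by', h2, map_neg]))
    refine q.ne (c.one fun v => ?_)
    obtain ⟨c, l, m, n, rfl, a1, -, a3, a4, a5, a6, a7, a8, -⟩ := q.split (ρ := ρ) v
    rw [h' l a3 a4, h2 m a5 a6, h1 n a7 a8]
    simpa using a1
  obtain ⟨e, he, h1, h2⟩ := h0
  have x1 : ρ x (ρ b e) = -ρ b e := by rw [q.bx, h2, map_neg, h1, map_neg]
  have y1 : ρ y (ρ b e) = ρ b e := by rw [q.by', h1]
  have x2 : ρ x (ρ b (ρ b e)) = -ρ b (ρ b e) := by rw [q.bx, y1, x1, map_neg]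
  have y2 : ρ y (ρ b (ρ b e)) = -ρ b (ρ b e) := by rw [q.by', x1, map_neg]
  have n1 : ρ b e ≠ 0 := act_ne b he
  have n2 : ρ b (ρ b e) ≠ 0 := act_ne b n1
  refine ⟨e, q, he, h1, h2, fun v v1 v2 => ?_, fun v v1 v2 => ?_⟩
  · obtain ⟨α, β, γ, h3, h4⟩ := c.dep e (ρ b e) v
    have := wt_zero (ρ := ρ) (x := x) (y := y) (c := 0) (l := -(α • e) - γ • v)
      (m := α • ρ b e - β • ρ b e + γ • ρ b v) (n := β • ρ b (ρ b e))
      (by linear_combination (norm := module) h4) (by simp) (by simp) (by simp [h1, v1]) (by simp [h2, v2]; abel)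
      (by simp only [map_add, map_sub, map_smul, x1, q.bx v, v1, v2, map_neg]; module)
      (by simp only [map_add, map_sub, map_smul, y1, q.by' v, v1])
      (by simp [x2]) (by simp [y2])
    obtain ⟨-, a1, -, a3⟩ := this
    have hβ : β = 0 := (smul_eq_zero.1 a3).resolve_right n2
    have hγ : γ ≠ 0 := by
      rintro rfl
      simp only [zero_smul, sub_zero, neg_eq_zero, smul_eq_zero, he, or_false] at a1
      simp [a1, hβ] at h3
    refine ⟨-(γ⁻¹ * α), ?_⟩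
    have : v = γ⁻¹ • γ • v := by rw [smul_smul, inv_mul_cancel₀ hγ, one_smul]
    rw [this, show γ • v = -(α • e) by linear_combination (norm := abel) -a1]
    module
  · obtain ⟨α, β, γ, h3, h4⟩ := c.dep e (ρ b e) v
    have := wt_zero (ρ := ρ) (x := x) (y := y) (c := γ • (ρ b v - v)) (l := -(α • e))
      (m := α • ρ b e - β • ρ b e) (n := β • ρ b (ρ b e))
      (by linear_combination (norm := module) h4) (by simp [q.bx v, v1, v2]) (by simp [q.by' v, v1, v2])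
      (by simp [h1]) (by simp [h2])
      (by simp only [map_sub, map_smul, x1]; module)
      (by simp only [map_sub, map_smul, y1])
      (by simp [x2]) (by simp [y2])
    obtain ⟨a0, a1, -, a3⟩ := this
    have hβ : β = 0 := (smul_eq_zero.1 a3).resolve_right n2
    have hα : α = 0 := (smul_eq_zero.1 (neg_eq_zero.1 a1)).resolve_right he
    have hγ : γ ≠ 0 := by simpa [hα, hβ] using h3
    exact sub_eq_zero.1 ((smul_eq_zero.1 a0).resolve_left hγ)

theorem Fr.split (f : Fr ρ b x y e) (v : E) : ∃ (c : E) (a₀ a₁ a₂ : ZMod 3),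
    v = c + a₀ • e + a₁ • ρ b e + a₂ • ρ b (ρ b e) ∧ ρ x c = c ∧ ρ y c = c ∧
    ∀ N : Submodule (ZMod 3) E, (∀ w ∈ N, ρ x w ∈ N) → (∀ w ∈ N, ρ y w ∈ N) → v ∈ N →
      c ∈ N ∧ a₀ • e ∈ N ∧ a₁ • ρ b e ∈ N ∧ a₂ • ρ b (ρ b e) ∈ N := by
  obtain ⟨c, l, m, n, h, a1, a2, a3, a4, a5, a6, a7, a8, a9⟩ := f.q.split (ρ := ρ) v
  obtain ⟨a, rfl⟩ := f.line l a3 a4
  obtain ⟨a', rfl⟩ := f.line1 a5 a6
  obtain ⟨a'', rfl⟩ := f.line2 a7 a8
  exact ⟨c, a, a', a'', h, a1, a2, a9⟩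

theorem sign_of (he : e ≠ 0) {a : ZMod 3} (h : ρ d e = a • e) : ρ d e = e ∨ ρ d e = -e := by
  have ha : a ≠ 0 := fun h0 => act_ne d he (by rw [h, h0, zero_smul])
  have : a = 1 ∨ a = -1 := by clear h; revert a; decide
  rcases this with rfl | rfl
  · exact Or.inl (by rw [h, one_smul])
  · exact Or.inr (by rw [h, neg_one_smul])

theorem Fr.sign (f : Fr ρ b x y e) (h1 : d * x = x * d) (h2 : d * y = y * d) :
    ρ d e = e ∨ ρ d e = -e := by
  obtain ⟨a, ha⟩ := f.line (ρ d e) (by rw [← act_comm h1, f.xe])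
    (by rw [← act_comm h2, f.ye, map_neg])
  exact sign_of f.ne ha

theorem Fr.sign1 (f : Fr ρ b x y e) (h1 : d * x = x * d) (h2 : d * y = y * d) :
    ρ d (ρ b e) = ρ b e ∨ ρ d (ρ b e) = -ρ b e :=
  f.rot.sign h2 (by rw [← mul_assoc, h1, mul_assoc, h2, mul_assoc])

theorem Fr.sign2 (f : Fr ρ b x y e) (h1 : d * x = x * d) (h2 : d * y = y * d) :
    ρ d (ρ b (ρ b e)) = ρ b (ρ b e) ∨ ρ d (ρ b (ρ b e)) = -ρ b (ρ b e) :=
  f.rot.sign1 h2 (by rw [← mul_assoc, h1, mul_assoc, h2, mul_assoc])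

theorem Fr.mv (c : Cx ρ b) (f : Fr ρ b x y e) {N : Submodule (ZMod 3) E} (h0 : e ∈ N)
    (h1 : ρ b e ∈ N) (h2 : ρ b (ρ b e) ∈ N) (v : E) :
    ρ b v - v ∈ N ∧ ρ x v - v ∈ N ∧ ρ y v - v ∈ N := by
  obtain ⟨w, a₀, a₁, a₂, rfl, c1, c2, -⟩ := f.split v
  simp only [map_add, map_smul, f.fix w c1 c2, c.bbb, c1, c2, f.xe, f.ye, f.x1, f.y1, f.x2, f.y2]
  refine ⟨?_, ?_, ?_⟩
  · convert add_mem (add_mem (N.smul_mem (a₂ - a₀) h0) (N.smul_mem (a₀ - a₁) h1))
      (N.smul_mem (a₁ - a₂) h2) using 1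
    module
  · convert add_mem (N.smul_mem (-2 * a₁) h1) (N.smul_mem (-2 * a₂) h2) using 1
    module
  · convert add_mem (N.smul_mem (-2 * a₀) h0) (N.smul_mem (-2 * a₂) h2) using 1
    module

end Cfsg.Agent.Cub
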