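import Cfsg.Agent.Cub.A

/-! Fixed spaces, commutator spaces and irreducibility. -/

set_option autoImplicit false
set_option linter.unusedSectionVars false

namespace Cfsg.Agent.Cub

open Subgroup Module
open scoped commutatorElement

variable {S : Type*} [Group S] {E : Type*} [AddCommGroup E] [Module (ZMod 3) E]
  {ρ : Representation (ZMod 3) S E} {b x y d g : S} {e v : E} {R H : Subgroup S}
  {N : Submodule (ZMod 3) E}

/-- The fixed space. -/
def fx (ρ : Representation (ZMod 3) S E) (R : Subgroup S) : Submodule (ZMod 3) E where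
  carrier := {v | ∀ r ∈ R, ρ r v = v}
  add_mem' := fun h1 h2 r hr => by rw [map_add, h1 r hr, h2 r hr]
  zero_mem' := fun r _ => map_zero _
  smul_mem' := fun a v h r hr => by rw [map_smul, h r hr]

/-- The commutator space. -/
def cm (ρ : Representation (ZMod 3) S E) (R : Subgroup S) : Submodule (ZMod 3) E :=
  Submodule.span (ZMod 3) {w | ∃ r ∈ R, ∃ v, w = ρ r v - v}

/-- The pointwise stabilizer. -/
def Fixer (ρ : Representation (ZMod 3) S E) (N : Submodule (ZMod 3) E) : Subgroup S where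
  carrier := {g | ∀ v ∈ N, ρ g v = v}
  mul_mem' := fun h1 h2 v hv => by rw [act_mul, h2 v hv, h1 v hv]
  one_mem' := fun v _ => act_one v
  inv_mem' := fun {g} h v hv => by
    have := act_inv (ρ := ρ) g v
    rwa [h v hv] at this

/-- Elements acting trivially on the quotient. -/
def Mover (ρ : Representation (ZMod 3) S E) (N : Submodule (ZMod 3) E) : Subgroup S where
  carrier := {g | ∀ v, ρ g v - v ∈ N}
  mul_mem' := fun {a b} h1 h2 v => by
    rw [act_mul, ← sub_add_sub_cancel _ (ρ b v)]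
    exact add_mem (h1 _) (h2 _)
  one_mem' := fun v => by rw [act_one, sub_self]; exact zero_mem _
  inv_mem' := fun {g} h v => by
    have := neg_mem (h (ρ g⁻¹ v))
    rwa [act_inv', neg_sub] at this

theorem Mover.inv (hg : g ∈ Mover ρ N) (hv : v ∈ N) : ρ g v ∈ N := by
  have := add_mem (hg v) hv
  rwa [sub_add_cancel] at this

theorem mem_cm (hg : g ∈ R) (v : E) : ρ g v - v ∈ cm ρ R :=
  Submodule.subset_span ⟨g, hg, v, rfl⟩

theorem cm_le (h : R ≤ Mover ρ N) : cm ρ R ≤ N :=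
  Submodule.span_le.2 <| by
    rintro _ ⟨r, hr, v, rfl⟩
    exact h hr v

theorem cm_inv (hg : ∀ r ∈ R, g * r * g⁻¹ ∈ R) (hv : v ∈ cm ρ R) : ρ g v ∈ cm ρ R := by
  have : cm ρ R ≤ (cm ρ R).comap (ρ g) := cm_le fun r hr w => by
    have := mem_cm (ρ := ρ) (hg r hr) (ρ g w)
    rwa [act_mul, act_inv, act_mul, ← map_sub] at this
  exact this hv

theorem cm_split [Finite S] (h : (Nat.card R).Coprime 3) :
    cm ρ R ⊓ fx ρ R = ⊥ ∧ cm ρ R ⊔ fx ρ R = ⊤ := by
  classical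
  haveI := Fintype.ofFinite R
  set n : ZMod 3 := (Fintype.card R : ZMod 3) with hn
  have hn0 : n ≠ 0 := by
    rw [hn, Ne, ZMod.natCast_eq_zero_iff, ← Nat.card_eq_fintype_card]
    exact (Nat.Prime.coprime_iff_not_dvd Nat.prime_three).1 h.symm
  let T : E →ₗ[ZMod 3] E := ∑ r : R, ρ r
  have hT : ∀ v, T v = ∑ r : R, ρ r v := fun v => by simp [T]
  have h1 : ∀ r ∈ R, ∀ v, T (ρ r v) = T v := fun r hr v => by
    simp only [hT, ← act_mul]
    exact Fintype.sum_equiv (Equiv.mulRight ⟨r, hr⟩) _ _ fun _ => rfl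
  have h2 : ∀ v, T v ∈ fx ρ R := fun v r hr => by
    simp only [hT, map_sum, ← act_mul]
    exact Fintype.sum_equiv (Equiv.mulLeft ⟨r, hr⟩) _ _ fun _ => rfl
  have h3 : cm ρ R ≤ LinearMap.ker T := cm_le fun r hr v => by
    rw [LinearMap.mem_ker, map_sub, h1 r hr, sub_self]
  have h4 : ∀ v, T v - n • v ∈ cm ρ R := fun v => by
    have : T v - n • v = ∑ r : R, (ρ r v - v) := by
      rw [hT, Finset.sum_sub_distrib, Finset.sum_const, Finset.card_univ, hn,
        Nat.cast_smul_eq_nsmul]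
    rw [this]
    exact Submodule.sum_mem _ fun r _ => mem_cm r.2 v
  refine ⟨eq_bot_iff.2 fun v ⟨a, a'⟩ => ?_, eq_top_iff.2 fun v _ => ?_⟩
  · have : T v = n • v := by
      rw [hT, Finset.sum_congr rfl fun (r : R) _ => a' r r.2, Finset.sum_const, Finset.card_univ, hn,
        Nat.cast_smul_eq_nsmul]
    rw [show T v = 0 from h3 a] at this
    exact (smul_eq_zero.1 this.symm).resolve_left hn0
  · have : v = (-n⁻¹) • (T v - n • v) + n⁻¹ • T v := by
      rw [smul_sub, smul_smul, neg_mul, inv_mul_cancel₀ hn0]; module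
    rw [this]
    exact add_mem (Submodule.mem_sup_left (Submodule.smul_mem _ _ (h4 v)))
      (Submodule.mem_sup_right (Submodule.smul_mem _ _ (h2 v)))

theorem le_of_conj (hR : R ≤ ⁅R, zpowers b⁆) (hb : b ∈ H) (h : ∀ r ∈ R, r * b * r⁻¹ ∈ H) :
    R ≤ H := by
  refine hR.trans (commutator_le.2 fun r hr _ ⟨i, hi⟩ => ?_)
  rw [← hi, commutatorElement_def, ← conj_zpow]
  exact mul_mem (zpow_mem (h r hr) i) (inv_mem (zpow_mem hb i))

/-- The standing hypotheses on `R`. -/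
structure Rx (ρ : Representation (ZMod 3) S E) (b : S) (R : Subgroup S) : Prop extends Cx ρ b where
  gen : R ≤ ⁅R, zpowers b⁆
  nb : ∀ r ∈ R, b * r * b⁻¹ ∈ R
  cop : (Nat.card R).Coprime 3

variable [Finite S] [Finite E]

theorem Rx.le_fixer (c : Rx ρ b R) (hN : ∀ r ∈ R, ∀ v ∈ N, ρ r v ∈ N) (hb : b ∈ Fixer ρ N) :
    R ≤ Fixer ρ N :=
  le_of_conj c.gen hb fun r hr v hv => by
    rw [act_mul, act_mul, hb _ (hN _ (inv_mem hr) v hv), act_inv']

theorem Rx.le_mover (c : Rx ρ b R) (hN : ∀ r ∈ R, ∀ v ∈ N, ρ r v ∈ N) (hb : b ∈ Mover ρ N) :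
    R ≤ Mover ρ N :=
  le_of_conj c.gen hb fun r hr v => by
    have := hN r hr _ (hb (ρ r⁻¹ v))
    rwa [map_sub, act_inv', ← act_mul, ← act_mul] at this

theorem Rx.det (c : Rx ρ b R) (hg : g ∈ R) : LinearMap.det (ρ g) = 1 := by
  let φ : S →* ZMod 3 := (LinearMap.det : (E →ₗ[ZMod 3] E) →* ZMod 3).comp ρ
  have hb : φ b = 1 := by
    have : φ b * φ b * φ b = 1 := by rw [← map_mul, ← map_mul, c.b3, map_one]
    generalize φ b = a at this
    revert a; decide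
  have : R ≤ φ.toHomUnits.ker := le_of_conj c.gen (Units.ext hb) fun r _ => by
    rw [MonoidHom.mem_ker, map_mul, map_mul, map_inv, show φ.toHomUnits b = 1 from Units.ext hb,
      mul_one, mul_inv_cancel]
  exact congrArg Units.val (this hg)

theorem Rx.no_refl (c : Rx ρ b R) (hg : g ∈ R) (hv : v ≠ 0) (h : ρ g v = -v)
    (h' : g ∈ Mover ρ (Submodule.span (ZMod 3) {v})) : False := by
  have h1 := c.det hg
  set W := Submodule.span (ZMod 3) {v}
  have hW : W ≤ W.comap (ρ g) := fun w hw => Mover.inv h' hw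
  rw [LinearMap.det_eq_det_mul_det W _ hW] at h1
  have h2 : (ρ g).restrict (p := W) (q := W) hW = (-1 : ZMod 3) • LinearMap.id := by
    ext ⟨w, hw⟩
    obtain ⟨a, rfl⟩ := Submodule.mem_span_singleton.1 hw
    simp [h]
  have h3 : W.mapQ W (ρ g) hW = LinearMap.id := by
    ext w
    simpa [Submodule.Quotient.eq] using h' w
  rw [h2, h3, LinearMap.det_smul, LinearMap.det_id, LinearMap.det_id,
    finrank_span_singleton hv] at h1
  revert h1; decide

theorem Rx.e_mem (f : Fr ρ b x y e) (hy : y ∈ R) : e ∈ cm ρ R := by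
  have := mem_cm (ρ := ρ) hy e
  rw [f.ye] at this
  convert this using 1
  linear_combination (norm := abel) three e

theorem Rx.irr (c : Rx ρ b R) (f : Fr ρ b x y e) (hx : x ∈ R) (hy : y ∈ R) (hN : N ≤ cm ρ R)
    (h1 : ∀ r ∈ R, ∀ v ∈ N, ρ r v ∈ N) (h2 : ∀ v ∈ N, ρ b v ∈ N) : N = ⊥ ∨ N = cm ρ R := by
  by_cases he : e ∈ N
  · exact Or.inr (le_antisymm hN (cm_le (c.le_mover h1
      fun v => (f.mv c.toCx he (h2 _ he) (h2 _ (h2 _ he)) v).1)))
  · left
    have key : ∀ (a : ZMod 3) (w : E), w ∉ N → a • w ∈ N → a • w = 0 := fun a w hw h => by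
      by_cases ha : a = 0
      · rw [ha, zero_smul]
      · exact absurd ((N.smul_mem_iff ha).1 h) hw
    have e2 : ρ b (ρ b e) ∉ N := fun h => he (c.bbb e ▸ h2 _ h)
    have e1 : ρ b e ∉ N := fun h => e2 (h2 _ h)
    have : R ≤ Fixer ρ N := c.le_fixer h1 fun v hv => by
      obtain ⟨w, a₀, a₁, a₂, h, c1, c2, h3⟩ := f.split v
      obtain ⟨-, h4, h5, h6⟩ := h3 N (h1 x hx) (h1 y hy) hv
      rw [key _ _ he h4, key _ _ e1 h5, key _ _ e2 h6, add_zero, add_zero, add_zero] at h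
      rw [h]; exact f.fix w c1 c2
    rw [eq_bot_iff, ← (cm_split (ρ := ρ) c.cop).1]
    exact fun v hv => ⟨hN hv, fun r hr => this hr v hv⟩

theorem Rx.faith (c : Rx ρ b R) (h1 : g ∈ Fixer ρ (fx ρ R)) (h2 : g ∈ Fixer ρ (cm ρ R)) :
    g = 1 := by
  refine c.one fun v => ?_
  obtain ⟨u, hu, w, hw, rfl⟩ := Submodule.mem_sup.1
    ((cm_split (ρ := ρ) c.cop).2.ge (Submodule.mem_top (x := v)))
  rw [map_add, h1 w hw, h2 u hu]

theorem Rx.faith' (c : Rx ρ b R) (hg : g ∈ R) (h2 : ∀ v ∈ cm ρ R, ρ g v = v) : g = 1 :=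
  c.faith (fun _ hv => hv g hg) h2

theorem Rx.cent (c : Rx ρ b R) (f : Fr ρ b x y e) (hx : x ∈ R) (hy : y ∈ R) (hd : d ∈ R)
    (h1 : ∀ r ∈ R, d * r = r * d) (h2 : d * b = b * d) :
    d = 1 ∨ ∀ v ∈ cm ρ R, ρ d v = -v := by
  have key : ∀ a : ZMod 3, ρ d e = a • e → ∀ v ∈ cm ρ R, ρ d v = a • v := fun a ha v hv => by
    let N : Submodule (ZMod 3) E := cm ρ R ⊓ LinearMap.ker (ρ d - a • LinearMap.id)
    have hN : ∀ v, v ∈ N ↔ v ∈ cm ρ R ∧ ρ d v = a • v := fun v => by simp [N, sub_eq_zero]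
    have inv : ∀ g, (∀ r ∈ R, g * r * g⁻¹ ∈ R) → d * g = g * d → ∀ v ∈ N, ρ g v ∈ N :=
      fun g hg hc v hv => (hN _).2 ⟨cm_inv hg ((hN v).1 hv).1, by
        rw [act_comm hc, ((hN v).1 hv).2, map_smul]⟩
    rcases c.irr f hx hy (N := N) inf_le_left
      (fun r hr => inv r (fun s hs => mul_mem (mul_mem hr hs) (inv_mem hr)) (h1 r hr))
      (inv b c.nb h2) with h | h
    · exact absurd (h ▸ (hN e).2 ⟨Rx.e_mem f hy, ha⟩ : e ∈ (⊥ : Submodule (ZMod 3) E)) f.ne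
    · exact ((hN v).1 (h ▸ hv)).2
  rcases f.sign (h1 x hx) (h1 y hy) with h | h
  · exact Or.inl (c.faith' hd fun v hv => by rw [key 1 (by rw [h, one_smul]) v hv, one_smul])
  · exact Or.inr fun v hv => by rw [key (-1) (by rw [h, neg_one_smul]) v hv, neg_one_smul]

theorem Rx.final (c : Rx ρ b R) (f : Fr ρ b x y e) (hx : x ∈ R) (hy : y ∈ R) :
    ∃ F₀ F₁ : Submodule (ZMod 3) E, F₀ ⊓ F₁ = ⊥ ∧ F₀ ⊔ F₁ = ⊤ ∧
      (∀ r ∈ R, ∀ v ∈ F₁, ρ r v = v) ∧ (∀ r ∈ R ⊔ zpowers b, ∀ v ∈ F₀, ρ r v ∈ F₀) ∧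
      (∀ r ∈ R ⊔ zpowers b, (∀ v ∈ F₀, ρ r v = v) → r = 1) ∧
      (∀ N : Submodule (ZMod 3) E, N ≤ F₀ → (∀ r ∈ R ⊔ zpowers b, ∀ v ∈ N, ρ r v ∈ N) →
        N = ⊥ ∨ N = F₀) := by
  refine ⟨cm ρ R, fx ρ R, (cm_split c.cop).1, (cm_split c.cop).2, fun r hr v hv => hv r hr,
    fun r hr v hv => ?_, fun r hr h => c.faith ?_ h, fun N h1 h2 => c.irr f hx hy h1
      (fun r hr => h2 r (mem_sup_left hr)) (h2 b (mem_sup_right (mem_zpowers b)))⟩
  · have : R ⊔ zpowers b ≤ normalizer (R : Set S) :=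
      sup_le le_normalizer (zpowers_le.2 (mem_normalizer_fintype c.nb))
    exact cm_inv (fun s hs => (mem_normalizer_iff.1 (this hr) s).1 hs) hv
  · exact (sup_le (fun s hs v hv => hv s hs) (zpowers_le.2 fun v hv =>
      f.fix v (hv x hx) (hv y hy)) : R ⊔ zpowers b ≤ Fixer ρ (fx ρ R)) hr

end Cfsg.Agent.Cub
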