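import Cfsg.Agent.Cub.B
import Cfsg.Agent.Glaub.KInf

/-! Finding a suitable four-group in the `2`-group `R`. -/

set_option autoImplicit false
set_option linter.unusedSectionVars false

namespace Cfsg.Agent.Cub

open Subgroup Module
open scoped commutatorElement

variable {S : Type*} [Group S] {b x y d g u r r' t z : S} {R H A : Subgroup S}

theorem four_of (h1 : x ≠ 1) (h2 : x * x = 1) (h3 : x * (b * x * b⁻¹) = b * x * b⁻¹ * x)
    (h4 : x * (b * x * b⁻¹) * (b * (b * x * b⁻¹) * b⁻¹) = 1) : Four b x (b * x * b⁻¹) where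
  ne := h1
  sq := h2
  cm := h3
  hx := by group
  hy := by
    have h5 : b * x * b⁻¹ * (b * x * b⁻¹) = 1 := by
      rw [show b * x * b⁻¹ * (b * x * b⁻¹) = b * (x * x) * b⁻¹ by group, h2]; group
    generalize b * x * b⁻¹ = y at *
    have h6 : x * y * (x * y) = 1 := by
      rw [show x * y * (x * y) = x * (y * x) * y by group, ← h3,
        show x * (x * y) * y = x * x * (y * y) by group, h2, h5, one_mul]
    rw [mul_left_cancel (h6.trans h4.symm), inv_mul_cancel_right]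

theorem exists_four (hA : ∀ a ∈ A, ∀ a' ∈ A, a * a' = a' * a) (hp : IsPGroup 2 A)
    (hb : ∀ a ∈ A, b * a * b⁻¹ ∈ A) (b3 : b * b * b = 1) (hu : u ∈ A) (h : b * u ≠ u * b) :
    ∃ x ∈ A, ∃ y ∈ A, Four b x y := by
  have key : ∀ k : ℕ, ∀ w ∈ A, w ≠ 1 → w * (b * w * b⁻¹) * (b * (b * w * b⁻¹) * b⁻¹) = 1 →
      w ^ 2 ^ k = 1 → ∃ x ∈ A, ∃ y ∈ A, Four b x y := by
    intro k
    induction k with
    | zero => intro w _ h1 _ h2; exact absurd (by simpa using h2) h1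
    | succ k ih =>
      intro w hw h1 h2 h3
      by_cases h4 : w * w = 1
      · exact ⟨w, hw, _, hb w hw, four_of h1 h4 (hA _ hw _ (hb w hw)) h2⟩
      · refine ih (w * w) (mul_mem hw hw) h4 ?_ (by rw [← sq, ← pow_mul, ← pow_succ', h3])
        have e1 : ∀ a : S, b * (a * a) * b⁻¹ = b * a * b⁻¹ * (b * a * b⁻¹) := fun a => by group
        rw [e1, e1]
        have m1 := hb w hw
        have m2 := hb _ m1
        generalize b * (b * w * b⁻¹) * b⁻¹ = w₂ at *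
        generalize b * w * b⁻¹ = w₁ at *
        have c1 : Commute w w₁ := hA _ hw _ m1
        have c2 : Commute (w * w₁) w₂ := hA _ (mul_mem hw m1) _ m2
        rw [← sq, ← sq, ← sq, ← c1.mul_pow, ← c2.mul_pow, h2, one_pow]
  have hw : u⁻¹ * (b * u * b⁻¹) ∈ A := mul_mem (inv_mem hu) (hb u hu)
  obtain ⟨k, hk⟩ := hp ⟨_, hw⟩
  refine key k _ hw (fun e => h ?_) ?_ (congrArg Subtype.val hk)
  · rw [inv_mul_eq_one] at e
    conv_rhs => rw [e]
    group
  · calc _ = u⁻¹ * (b * b * b) * u * (b * b * b)⁻¹ := by group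
      _ = 1 := by rw [b3]; group

/-- The centre of `R`. -/
abbrev Zc (R : Subgroup S) : Subgroup S := R ⊓ centralizer (R : Set S)

theorem Zc.cm (ht : t ∈ Zc R) (hr : r ∈ R) : r * t = t * r := ht.2 r hr

/-- Elements of `R` commuting with `u` modulo the centre. -/
def Cz (R : Subgroup S) (u : S) : Set S := {r | ∃ t ∈ Zc R, u * r = r * u * t}

/-- The second centre of `R`. -/
def Z2 (R : Subgroup S) : Subgroup S where
  carrier := {u | u ∈ R ∧ ∀ r ∈ R, r ∈ Cz R u}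
  mul_mem' := fun {u u'} ⟨h1, h2⟩ ⟨h3, h4⟩ => ⟨mul_mem h1 h3, fun r hr => by
    obtain ⟨t, ht, e⟩ := h2 r hr
    obtain ⟨t', ht', e'⟩ := h4 r hr
    refine ⟨t * t', mul_mem ht ht', ?_⟩
    rw [mul_assoc, e', ← mul_assoc, ← mul_assoc, e, mul_assoc _ t, ← Zc.cm ht h3]; group⟩
  one_mem' := ⟨one_mem _, fun r _ => ⟨1, one_mem _, by group⟩⟩
  inv_mem' := fun {u} ⟨h1, h2⟩ => ⟨inv_mem h1, fun r hr => by
    obtain ⟨t, ht, e⟩ := h2 r hr
    refine ⟨t⁻¹, inv_mem ht, ?_⟩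
    rw [Zc.cm ht (mul_mem hr h1), ← mul_assoc] at e
    calc u⁻¹ * r = u⁻¹ * (t * r * u) * u⁻¹ * r⁻¹ * t⁻¹ * r := by group
      _ = _ := by rw [← e, mul_assoc _ t⁻¹, ← Zc.cm (inv_mem ht) hr]; group⟩

/-- The subgroup version of `Cz`. -/
def Cz' (R : Subgroup S) (u : S) : Subgroup S where
  carrier := {r | r ∈ R ∧ r ∈ Cz R u}
  mul_mem' := fun {r r'} ⟨h1, t, ht, e⟩ ⟨h3, t', ht', e'⟩ => ⟨mul_mem h1 h3, t' * t,
    mul_mem ht' ht, by
      rw [← mul_assoc, e, mul_assoc _ t, ← Zc.cm ht h3, mul_assoc r, ← mul_assoc u, e']; group⟩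
  one_mem' := ⟨one_mem _, 1, one_mem _, by group⟩
  inv_mem' := fun {r} ⟨h1, t, ht, e⟩ => ⟨inv_mem h1, t⁻¹, inv_mem ht, by
    calc u * r⁻¹ = r⁻¹ * (r * u * t) * t⁻¹ * r⁻¹ := by group
      _ = _ := by rw [← e, mul_assoc _ t⁻¹, ← Zc.cm (inv_mem ht) (inv_mem h1)]; group⟩

theorem Zc_le_Z2 (ht : t ∈ Zc R) : t ∈ Z2 R :=
  ⟨ht.1, fun r hr => ⟨1, one_mem _, by rw [mul_one, Zc.cm ht hr]⟩⟩

/-- The case of a centre of order two. -/
structure Zx (b : S) (R : Subgroup S) (z : S) : Prop where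
  b3 : b * b * b = 1
  gen : R ≤ ⁅R, zpowers b⁆
  nb : ∀ r ∈ R, b * r * b⁻¹ ∈ R
  p2 : IsPGroup 2 R
  hz : z ∈ Zc R
  z1 : z ≠ 1
  zb : b * z = z * b
  all : ∀ t ∈ Zc R, t = 1 ∨ t = z

namespace Zx

variable (c : Zx b R z)
include c

theorem sq (ht : t ∈ Zc R) : t * t = 1 := by
  have : z * z = 1 := (c.all _ (mul_mem c.hz c.hz)).resolve_right fun h => c.z1 (mul_eq_left.1 h)
  rcases c.all t ht with rfl | rfl
  · exact one_mul 1
  · exact this

theorem tb (ht : t ∈ Zc R) : b * t = t * b := by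
  rcases c.all t ht with rfl | rfl
  · rw [mul_one, one_mul]
  · exact c.zb

theorem binv : b⁻¹ = b * b := inv_eq_of_mul_eq_one_left c.b3

theorem nb' (hr : r ∈ R) : b⁻¹ * r * b ∈ R := by
  have := c.nb _ (c.nb r hr)
  rwa [show b * (b * r * b⁻¹) * b⁻¹ = (b * b) * r * (b * b)⁻¹ by group, ← c.binv, inv_inv] at this

theorem nc (hu : u ∈ Z2 R) (hr : r ∈ R) (h : ¬ Commute u r) : u * r = r * u * z := by
  obtain ⟨t, ht, e⟩ := hu.2 r hr
  rcases c.all t ht with rfl | rfl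
  · exact absurd (by rwa [mul_one] at e) h
  · exact e

theorem two_nc (hu : u ∈ Z2 R) (hr : r ∈ R) (hr' : r' ∈ R) (h : ¬ Commute u r)
    (h' : ¬ Commute u r') : Commute u (r * r') := by
  change u * (r * r') = r * r' * u
  rw [← mul_assoc, c.nc hu hr h, mul_assoc _ z, ← Zc.cm c.hz hr', mul_assoc r, ← mul_assoc u,
    c.nc hu hr' h', mul_assoc _ z, c.sq c.hz]
  group

theorem z2b (hu : u ∈ Z2 R) : b * u * b⁻¹ ∈ Z2 R := ⟨c.nb u hu.1, fun r hr => by
  obtain ⟨t, ht, e⟩ := hu.2 _ (c.nb' hr)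
  refine ⟨t, ht, ?_⟩
  calc b * u * b⁻¹ * r = b * (u * (b⁻¹ * r * b)) * b⁻¹ := by group
    _ = r * b * u * b⁻¹ * (b * t * b⁻¹) := by rw [e]; group
    _ = _ := by rw [c.tb ht]; group⟩

theorem of_b (h : b * u * b⁻¹ ∈ Zc R) : u ∈ Zc R := by
  have := c.tb h
  rw [show b * u * b⁻¹ * b = b * u by group] at this
  rwa [mul_left_cancel this] at h

theorem fpf (hu : u ∈ Z2 R) (ht : t ∈ Zc R) (h : b * u * b⁻¹ = u * t) : u ∈ Zc R := by
  have h1 : b * t * b⁻¹ = t := by rw [c.tb ht, mul_inv_cancel_right]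
  have h2 : ∀ a a' : S, b * (a * a') * b⁻¹ = b * a * b⁻¹ * (b * a' * b⁻¹) := fun a a' => by group
  have h3 : b * (b * (b * u * b⁻¹) * b⁻¹) * b⁻¹ = u := by
    calc _ = (b * b * b) * u * (b * b * b)⁻¹ := by group
      _ = u := by rw [c.b3]; group
  rw [h, h2 u t, h, h1, mul_assoc u, c.sq ht, mul_one, h, mul_eq_left] at h3
  rw [h3, mul_one, mul_inv_eq_iff_eq_mul] at h
  have : R ≤ centralizer {u} := le_of_conj c.gen (mem_centralizer_singleton_iff.2 h)
    fun r hr => mem_centralizer_singleton_iff.2 <| by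
      obtain ⟨t, ht, e⟩ := hu.2 r hr
      calc r * b * r⁻¹ * u = r * b * r⁻¹ * (u * r) * r⁻¹ := by group
        _ = r * (b * u) * t * r⁻¹ := by rw [e]; group
        _ = (r * u * t) * (t⁻¹ * (b * t)) * r⁻¹ := by rw [h]; group
        _ = _ := by rw [← e, c.tb ht]; group
  exact ⟨hu.1, fun r hr => mem_centralizer_singleton_iff.1 (this hr)⟩

theorem sq2 (hu : u ∈ Z2 R) : u * u ∈ Zc R := ⟨mul_mem hu.1 hu.1, fun r hr => by
  obtain ⟨t, ht, e⟩ := hu.2 r hr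
  symm
  rw [mul_assoc, e, ← mul_assoc, ← mul_assoc, e, mul_assoc _ t, ← Zc.cm ht hu.1, mul_assoc,
    mul_assoc u, c.sq ht]
  group⟩

theorem nrm (hg : g ∈ R) (h : g * (b * g * b⁻¹) * (b * (b * g * b⁻¹) * b⁻¹) ∈ Z2 R) :
    g * (b * g * b⁻¹) * (b * (b * g * b⁻¹) * b⁻¹) ∈ Zc R := by
  obtain ⟨t, ht, e⟩ := h.2 g hg
  refine c.fpf h ht ?_
  rw [mul_assoc g, ← inv_mul_eq_iff_eq_mul] at e
  rw [← e]
  calc _ = g⁻¹ * (g * (b * g * b⁻¹) * (b * (b * g * b⁻¹) * b⁻¹) *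
        ((b * b * b) * g * (b * b * b)⁻¹)) := by group
    _ = _ := by rw [c.b3]; group

theorem nrm2 (hu : u ∈ Z2 R) : u * (b * u * b⁻¹) * (b * (b * u * b⁻¹) * b⁻¹) ∈ Zc R :=
  c.nrm hu.1 (mul_mem (mul_mem hu (c.z2b hu)) (c.z2b (c.z2b hu)))

theorem sq3 (hu : u ∈ Z2 R) : u * (b * u * b⁻¹) * (u * (b * u * b⁻¹)) = u * u := by
  have h1 := c.nrm2 hu
  have h2 : b * (b * u * b⁻¹) * b⁻¹ * (b * (b * u * b⁻¹) * b⁻¹) = u * u := by
    calc _ = b * (b * (u * u) * b⁻¹) * b⁻¹ := by group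
      _ = _ := by simp only [c.tb (c.sq2 hu), mul_inv_cancel_right]
  have h3 := (c.z2b (c.z2b hu)).1
  generalize b * (b * u * b⁻¹) * b⁻¹ = w at *
  generalize u * (b * u * b⁻¹) = a at *
  have h4 := c.sq h1
  have h5 := Zc.cm h1 h3
  have h6 := c.sq (c.sq2 hu)
  have h7 : Commute w⁻¹ (a * w) := Commute.inv_left h5
  calc a * a = (a * w) * w⁻¹ * ((a * w) * w⁻¹) := by group
    _ = (a * w) * (a * w) * (w * w)⁻¹ := by rw [h7.mul_mul_mul_comm, mul_inv_rev]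
    _ = _ := by rw [h4, h2, one_mul, inv_eq_of_mul_eq_one_left h6]

theorem four2 (hu : u ∈ Z2 R) (h : u ∉ Zc R) (h2 : u * u = 1) :
    ∃ x ∈ Z2 R, x ∉ Zc R ∧ Four b x (b * x * b⁻¹) := by
  have h1 := c.nrm2 hu
  have h3 := c.sq3 hu
  have h4 : b * u * b⁻¹ * (b * u * b⁻¹) = 1 := by
    rw [show b * u * b⁻¹ * (b * u * b⁻¹) = b * (u * u) * b⁻¹ by group, h2]; group
  have h5 : ∀ a : S, b * (a * (u * (b * u * b⁻¹) * (b * (b * u * b⁻¹) * b⁻¹))) * b⁻¹ =
      b * a * b⁻¹ * (u * (b * u * b⁻¹) * (b * (b * u * b⁻¹) * b⁻¹)) := fun a => by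
    rw [← mul_assoc, mul_assoc (b * a), mul_assoc (b * a)]
    congr 1
    rw [eq_inv_mul_iff_mul_eq, ← mul_assoc, c.tb h1, mul_inv_cancel_right]
  refine ⟨_, mul_mem hu (Zc_le_Z2 h1), fun e => h ((mul_mem_cancel_right h1).1 e), four_of
    (fun e => h ?_) ?_ ?_ ?_⟩
  · rw [mul_eq_one_iff_eq_inv.1 e]; exact inv_mem h1
  all_goals
    try simp only [h5]
    have m1 := c.nb u hu.1
    have m2 := c.nb _ m1
    obtain ⟨n, hn⟩ : ∃ n, n = u * (b * u * b⁻¹) * (b * (b * u * b⁻¹) * b⁻¹) := ⟨_, rfl⟩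
    rw [← hn] at h1 ⊢
    generalize b * (b * u * b⁻¹) * b⁻¹ = w at *
    generalize b * u * b⁻¹ = s at *
    have c0 := Zc.cm h1 hu.1
    have c1 := Zc.cm h1 m1
    have c2 := Zc.cm h1 m2
    have c3 := c.sq h1
  · rw [mul_assoc, ← mul_assoc n, ← c0, mul_assoc u n, c3, mul_one, h2]
  · have : u * s = s * u := by
      rw [h2] at h3
      rw [← inv_eq_of_mul_eq_one_left h3, mul_inv_rev, inv_eq_of_mul_eq_one_left h2,
        inv_eq_of_mul_eq_one_left h4]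
    rw [mul_assoc, ← mul_assoc n, ← c1, mul_assoc s n, c3, mul_assoc, ← mul_assoc n, ← c0,
      mul_assoc u n, c3, mul_one, mul_one, this]
  · rw [mul_assoc u, ← mul_assoc n, ← c1, mul_assoc s n, c3, mul_one, ← mul_assoc, ← hn, c3]

theorem exists_Z2 [Finite S] {C : Subgroup S} (hC : C ≤ R) (hn : R ≤ normalizer (C : Set S))
    (h : ¬ C ≤ Zc R) : ∃ u ∈ C, u ∉ Zc R ∧ u ∈ Z2 R := by
  haveI : Fact (Nat.Prime 2) := ⟨Nat.prime_two⟩
  obtain ⟨u, h1, h2, h3⟩ := Glaub.exists_not_mem_commutator_le c.p2 hC le_rfl hn h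
  refine ⟨u, h1, h2, hC h1, fun r hr => ⟨_, h3 (commutator_mem_commutator
    (inv_mem (mem_zpowers u)) (inv_mem hr)), ?_⟩⟩
  rw [commutatorElement_def]; group

theorem exists_four2 [Finite S] (q : Four b x y) (hx : x ∈ R) (hy : y ∈ R) :
    ∃ x ∈ Z2 R, x ∉ Zc R ∧ Four b x (b * x * b⁻¹) := by
  have hxZ : x ∉ Zc R := fun h => by
    have h1 := c.tb h
    rw [q.hx, mul_left_inj] at h1
    have := q.sq
    nth_rw 2 [← h1] at this
    exact q.rot.rot.ne this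
  obtain ⟨u, -, h1, hu⟩ := c.exists_Z2 le_rfl le_normalizer fun h => hxZ (h hx)
  by_cases h2 : u * u = 1
  · exact c.four2 hu h1 h2
  have h3 : u * u = z := (c.all _ (c.sq2 hu)).resolve_left h2
  have h4 := c.sq3 hu
  have hs := c.z2b hu
  have h5 : b * u * b⁻¹ * (b * u * b⁻¹) = z := by
    rw [show b * u * b⁻¹ * (b * u * b⁻¹) = b * (u * u) * b⁻¹ by group, h3, c.zb]; group
  generalize b * u * b⁻¹ = s at *
  have h6 : ¬ Commute u s := fun h => c.z1 <| by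
    rw [← h3, ← h4, h.symm.mul_mul_mul_comm, h3, h5, c.sq c.hz]
  have h7 : ¬ Commute s u := fun h => h6 h.symm
  have nrm : ∀ a ∈ Z2 R, R ≤ normalizer ((centralizer {a} ⊓ R : Subgroup S) : Set S) :=
    fun a ha r hr => mem_normalizer_fintype fun w ⟨w1, w2⟩ =>
      ⟨mem_centralizer_singleton_iff.2 ?_, R.mul_mem (R.mul_mem hr w2) (R.inv_mem hr)⟩
  · by_cases hC : (centralizer {u} ⊓ R) ⊓ (centralizer {s} ⊓ R) ≤ Zc R
    · exfalso
      have key : ∀ a ∈ R, a * a = z → Commute u (a * x) → Commute s (a * x) → False :=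
        fun a ha a1 a2 a3 => by
          have m := hC ⟨⟨mem_centralizer_singleton_iff.2 a2.symm.eq, mul_mem ha hx⟩,
            mem_centralizer_singleton_iff.2 a3.symm.eq, mul_mem ha hx⟩
          have e1 := c.sq m
          have e2 := Zc.cm m hx
          apply c.z1
          calc z = a * (x * x) * a * (x * x) := by rw [q.sq, ← a1]; group
            _ = (a * x) * (x * (a * x)) * x := by group
            _ = (a * x) * (a * x) * (x * x) := by rw [e2]; group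
            _ = 1 := by rw [e1, q.sq, one_mul]
      by_cases a1 : Commute u x <;> by_cases a2 : Commute s x
      · exact hxZ (hC ⟨⟨mem_centralizer_singleton_iff.2 a1.symm.eq, hx⟩,
          mem_centralizer_singleton_iff.2 a2.symm.eq, hx⟩)
      · exact key u hu.1 h3 ((Commute.refl u).mul_right a1) (c.two_nc hs hu.1 hx h7 a2)
      · exact key s hs.1 h5 (c.two_nc hu hs.1 hx h6 a1) ((Commute.refl s).mul_right a2)
      · refine key (u * s) (mul_mem hu.1 hs.1) (h4.trans h3) ?_ (c.two_nc hs (mul_mem hu.1 hs.1) hx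
          (fun h => h7 ?_) a2)
        · rw [mul_assoc]; exact (Commute.refl u).mul_right (c.two_nc hu hs.1 hx h6 a1)
        · simpa using h.mul_right (Commute.refl s).inv_right
    · obtain ⟨w, ⟨⟨w1, -⟩, w2, -⟩, w3, hw⟩ := c.exists_Z2 (inf_le_left.trans inf_le_right)
        (Core.le_normalizer_inf (nrm u hu) (nrm s hs)) hC
      by_cases w4 : w * w = 1
      · exact c.four2 hw w3 w4
      have w5 : w * w = z := (c.all _ (c.sq2 hw)).resolve_left w4
      have c1 : Commute u w := (mem_centralizer_singleton_iff.1 w1).symm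
      have c2 : Commute s w := (mem_centralizer_singleton_iff.1 w2).symm
      refine c.four2 (mul_mem hu hw) (fun h => h7 ?_) ?_
      · have : Commute s (u * w) := Zc.cm h hs.1
        simpa using this.mul_right c2.inv_right
      · rw [c1.symm.mul_mul_mul_comm, h3, w5, c.sq c.hz]
  · obtain ⟨t, ht, e⟩ := ha.2 r hr
    replace w1 := mem_centralizer_singleton_iff.1 w1
    calc r * w * r⁻¹ * a = r * w * r⁻¹ * (a * r) * r⁻¹ := by group
      _ = r * (w * a) * t * r⁻¹ := by rw [e]; group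
      _ = (r * a * t) * (t⁻¹ * (w * t)) * r⁻¹ := by rw [w1]; group
      _ = _ := by rw [← e, Zc.cm ht w2]; group

end Zx

end Cfsg.Agent.Cub
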