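import Cfsg.Agent.Cub.C
import Cfsg.Agent.PGrp.Special

/-! The structure of the `2`-group `R`. -/

set_option autoImplicit false
set_option linter.unusedSectionVars false

namespace Cfsg.Agent.Cub

open Subgroup Module
open scoped commutatorElement

variable {S : Type*} [Group S] {E : Type*} [AddCommGroup E] [Module (ZMod 3) E]
  {ρ : Representation (ZMod 3) S E} {b x y d g z s : S} {e v : E} {R H : Subgroup S}

theorem card_two_mul {K : Subgroup S} (hx : x ∈ H) (hK : x ∉ K)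
    (h : ∀ y ∈ H, y ∉ K → y * x ∈ K) : Nat.card H = 2 * Nat.card ↥(K ⊓ H) := by
  rw [← PGrp.card_inf_mul_relIndex K H, mul_comm, relIndex_eq_two_iff.2 ⟨x, hx, fun y hy => ?_⟩]
  by_cases e : y ∈ K
  · exact Or.inr ⟨e, fun h => hK ((mul_mem_cancel_left e).1 h)⟩
  · exact Or.inl ⟨h y hy e, e⟩

theorem norm_sign (f : Fr ρ b x y e) (h1 : d * x = x * d) (h2 : d * y = y * d) :
    ∃ q, (q = 1 ∨ q = x ∨ q = y ∨ q = x * y) ∧ ρ (q * d) (ρ b e) = ρ b e ∧
      ρ (q * d) (ρ b (ρ b e)) = ρ b (ρ b e) := by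
  rcases f.sign1 h1 h2 with a | a <;> rcases f.sign2 h1 h2 with a' | a'
  · exact ⟨1, by simp, by rw [one_mul, a], by rw [one_mul, a']⟩
  · exact ⟨y, by simp, by rw [act_mul, a, f.y1], by rw [act_mul, a', map_neg, f.y2, neg_neg]⟩
  · exact ⟨x * y, by simp, by rw [act_mul, act_mul, a, map_neg, f.y1, map_neg, f.x1, neg_neg],
      by rw [act_mul, act_mul, a', f.y2, map_neg, f.x2, neg_neg]⟩
  · exact ⟨x, by simp, by rw [act_mul, a, map_neg, f.x1, neg_neg],
      by rw [act_mul, a', map_neg, f.x2, neg_neg]⟩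

theorem q_comm (q : Four b x y) {g : S} (h : g = 1 ∨ g = x ∨ g = y ∨ g = x * y) :
    g * g = 1 ∧ g * x = x * g ∧ g * y = y * g := by
  rcases h with rfl | rfl | rfl | rfl
  · simp
  · exact ⟨q.sq, rfl, q.cm⟩
  · exact ⟨q.ysq, q.cm.symm, rfl⟩
  · exact ⟨q.rot.ysq, by rw [mul_assoc, ← q.cm], q.rot.cm.symm⟩

variable [Finite S] [Finite E]

theorem case_one (c : Rx ρ b R) (q : Four b x y) (hx : x ∈ Zc R) (hy : y ∈ Zc R) :
    IsElementaryAbelian 2 R ∧ Nat.card R = 4 := by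
  obtain ⟨e, f⟩ := c.toCx.frame q
  let N : Submodule (ZMod 3) E := LinearMap.ker (ρ x - 1) ⊓ LinearMap.ker (ρ y - 1)
  have hN : ∀ v, v ∈ N ↔ ρ x v = v ∧ ρ y v = v := fun v => by simp [N, sub_eq_zero]
  have h1 : R ≤ Fixer ρ N := c.le_fixer (fun r hr v hv => (hN _).2 ⟨by
      rw [← act_comm (Zc.cm hx hr), ((hN v).1 hv).1], by
      rw [← act_comm (Zc.cm hy hr), ((hN v).1 hv).2]⟩)
    fun v hv => f.fix v ((hN v).1 hv).1 ((hN v).1 hv).2
  have hq : ∀ g, (g = 1 ∨ g = x ∨ g = y ∨ g = x * y) → g ∈ Zc R := by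
    rintro g (rfl | rfl | rfl | rfl)
    exacts [one_mem _, hx, hy, mul_mem hx hy]
  have key : ∀ r ∈ R, r = 1 ∨ r = x ∨ r = y ∨ r = x * y := fun r hr => by
    obtain ⟨g, hg, a1, a2⟩ := norm_sign f (Zc.cm hx hr) (Zc.cm hy hr)
    have m := mul_mem (hq g hg).1 hr
    rcases f.sign (Zc.cm hx m) (Zc.cm hy m) with a0 | a0
    · have : g * r = 1 := c.one fun v => by
        obtain ⟨w, a₀, a₁, a₂, rfl, c1, c2, -⟩ := f.split v
        simp only [map_add, map_smul, a0, a1, a2, h1 m w ((hN w).2 ⟨c1, c2⟩)]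
      rwa [mul_left_cancel (this.trans (q_comm q hg).1.symm)]
    · refine (c.no_refl m f.ne a0 fun v => ?_).elim
      obtain ⟨w, a₀, a₁, a₂, rfl, c1, c2, -⟩ := f.split v
      simp only [map_add, map_smul, a0, a1, a2, h1 m w ((hN w).2 ⟨c1, c2⟩)]
      exact Submodule.mem_span_singleton.2 ⟨-2 * a₀, by module⟩
  refine ⟨⟨⟨⟨fun a a' => Subtype.ext (Zc.cm (hq _ (key _ a'.2)) a.2)⟩⟩, fun a ha => by
    rw [pow_two, (q_comm q (key a ha)).1]⟩, ?_⟩
  have : (R : Set S) = {1, x, y, x * y} := Set.ext fun r => ⟨key r, fun h => (hq r h).1⟩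
  have n1 := q.ne
  have n2 := q.rot.ne
  have n3 := q.rot.rot.ne
  have n4 : x ≠ y := fun h => n3 (by rw [← h, q.sq])
  rw [← SetLike.coe_sort_coe, this, Nat.card_coe_set_eq, Set.ncard_insert_of_notMem,
    Set.ncard_insert_of_notMem, Set.ncard_pair] <;> simp [n1, n2, n1.symm, n2.symm, n3.symm, n4]

theorem cent_le (c : Rx ρ b R) (k : Zx b R z) (hz : ∀ v ∈ cm ρ R, ρ z v = -v) (q : Four b x y)
    (hx : x ∈ Z2 R) (hy : y ∈ Z2 R) (hs : s ∈ R) (s1 : Commute x s) (s2 : ¬ Commute y s)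
    (hd : d ∈ R) (h1 : d * x = x * d) (h2 : d * y = y * d) : d ∈ closure {x, y, z} := by
  obtain ⟨e, f⟩ := c.toCx.frame q
  have inv : ∀ r ∈ R, ∀ v ∈ cm ρ R, ρ r v ∈ cm ρ R := fun r hr v hv =>
    cm_inv (fun s hs => mul_mem (mul_mem hr hs) (inv_mem hr)) hv
  have e0 := Rx.e_mem f hy.1
  have e1 := cm_inv c.nb e0
  have e2 := cm_inv c.nb e1
  have line : ∀ v ∈ cm ρ R, ρ x v = v → ρ y v = v → ∃ a : ZMod 3, v = a • ρ s e := by
    intro v hv v1 v2
    obtain ⟨a, ha⟩ := f.line (ρ s⁻¹ v) (by rw [act_comm s1.inv_right.eq, v1]) (by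
      rw [← act_mul, k.nc hy (inv_mem hs) (fun h => s2 (by simpa using h.inv_right)), act_mul,
        act_mul, hz v hv, map_neg, v2, map_neg])
    exact ⟨a, by rw [← map_smul, ← ha, act_inv']⟩
  have f1 : ρ x (ρ s e) = ρ s e := by rw [act_comm s1.eq, f.xe]
  have f2 : ρ y (ρ s e) = ρ s e := by
    rw [← act_mul, k.nc hy hs s2, act_mul, act_mul, hz e e0, map_neg, f.ye, neg_neg]
  have key : ∀ g ∈ R, g * x = x * g → g * y = y * g → ρ g e = e → ρ g (ρ b e) = ρ b e →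
      ρ g (ρ b (ρ b e)) = ρ b (ρ b e) → g = 1 := fun g hg g1 g2 a0 a1 a2 => by
    obtain ⟨a, ha⟩ := line (ρ g (ρ s e)) (inv g hg _ (inv s hs _ e0))
      (by rw [← act_comm g1, f1]) (by rw [← act_comm g2, f2])
    have sp : ∀ v ∈ cm ρ R, ∃ a : ZMod 3, ρ g v - v = a • (ρ g (ρ s e) - ρ s e) := fun v hv => by
      obtain ⟨w, a₀, a₁, a₂, rfl, c1, c2, c3⟩ := f.split v
      obtain ⟨a, rfl⟩ := line w (c3 _ (inv x hx.1) (inv y hy.1) hv).1 c1 c2
      exact ⟨a, by simp only [map_add, map_smul, a0, a1, a2]; module⟩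
    rcases sign_of (act_ne s f.ne) ha with h | h
    · refine c.faith' hg fun v hv => ?_
      obtain ⟨a, ha⟩ := sp v hv
      rwa [h, sub_self, smul_zero, sub_eq_zero] at ha
    · refine (c.no_refl hg (act_ne s f.ne) h fun v => ?_).elim
      obtain ⟨u, hu, w, hw, rfl⟩ := Submodule.mem_sup.1
        ((cm_split (ρ := ρ) c.cop).2.ge (Submodule.mem_top (x := v)))
      obtain ⟨a, ha⟩ := sp u hu
      rw [map_add, hw g hg, add_sub_add_right_eq_sub, ha, h]
      exact Submodule.mem_span_singleton.2 ⟨-2 * a, by module⟩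
  obtain ⟨g, hg, a1, a2⟩ := norm_sign f h1 h2
  have mx : x ∈ closure {x, y, z} := subset_closure (by simp)
  have my : y ∈ closure {x, y, z} := subset_closure (by simp)
  have mz : z ∈ closure {x, y, z} := subset_closure (by simp)
  have hg' : g ∈ closure {x, y, z} ⊓ R := by
    rcases hg with rfl | rfl | rfl | rfl
    exacts [one_mem _, ⟨mx, hx.1⟩, ⟨my, hy.1⟩, ⟨mul_mem mx my, mul_mem hx.1 hy.1⟩]
  have m := mul_mem hg'.2 hd
  have g1 : g * d * x = x * (g * d) := by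
    rw [mul_assoc, h1, ← mul_assoc, (q_comm q hg).2.1, mul_assoc]
  have g2 : g * d * y = y * (g * d) := by
    rw [mul_assoc, h2, ← mul_assoc, (q_comm q hg).2.2, mul_assoc]
  refine (mul_mem_cancel_left (mem_inf.1 hg').1).1 ?_
  rcases f.sign g1 g2 with a0 | a0
  · rw [key _ m g1 g2 a0 a1 a2]; exact one_mem _
  · refine (mul_mem_cancel_left (mul_mem mz mx)).1 ?_
    have z1 := Zc.cm k.hz hx.1
    have z2 := Zc.cm k.hz hy.1
    rw [key (z * x * (g * d)) (mul_mem (mul_mem k.hz.1 hx.1) m) ?_ ?_ ?_ ?_ ?_]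
    · exact one_mem _
    · exact ((Commute.mul_left z1.symm (Commute.refl x)).mul_left g1).eq
    · exact ((Commute.mul_left z2.symm q.cm).mul_left g2).eq
    · rw [act_mul, act_mul, a0, map_neg, f.xe, map_neg, hz e e0, neg_neg]
    · rw [act_mul, act_mul, a1, f.x1, map_neg, hz _ e1, neg_neg]
    · rw [act_mul, act_mul, a2, f.x2, map_neg, hz _ e2, neg_neg]

theorem comm_b (h : Commute (b * x * b⁻¹) (b * g * b⁻¹)) : Commute x g := by
  have := h.conj b⁻¹
  simpa [mul_assoc] using this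

theorem case_two (c : Rx ρ b R) (k : Zx b R z) (hz : ∀ v ∈ cm ρ R, ρ z v = -v) (q : Four b x y)
    (hx : x ∈ Z2 R) (hxZ : x ∉ Zc R) : IsExtraspecial 2 R ∧ Nat.card R = 32 ∧
      ∃ A : Subgroup S, A ≤ R ∧ IsElementaryAbelian 2 A ∧ Nat.card A = 8 := by
  haveI : Fact (Nat.Prime 2) := ⟨Nat.prime_two⟩
  have ey := q.y_eq
  have exy := q.rot.y_eq
  have ex : x = b * (x * y) * b⁻¹ := by rw [q.hxy, mul_inv_cancel_right]
  have hy : y ∈ Z2 R := ey ▸ k.z2b hx
  -- transport of commutation along `b`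
  have t1 : ∀ g, Commute y (b * g * b⁻¹) ↔ Commute x g := fun g =>
    ⟨fun h => comm_b (ey ▸ h), fun h => ey ▸ h.conj b⟩
  have t2 : ∀ g, Commute (x * y) (b * g * b⁻¹) ↔ Commute y g := fun g =>
    ⟨fun h => comm_b (exy ▸ h), fun h => exy ▸ h.conj b⟩
  have t3 : ∀ g, Commute x (b * g * b⁻¹) ↔ Commute (x * y) g := fun g =>
    ⟨fun h => comm_b (ex ▸ h), fun h => ex ▸ h.conj b⟩
  have lx : ∀ g, Commute x g → ¬ Commute y g → ¬ Commute (x * y) g := fun g h1 h2 h3 =>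
    h2 (by simpa using h1.inv_left.mul_left h3)
  have ly : ∀ g, Commute y g → Commute (x * y) g → Commute x g := fun g h1 h3 => by
    simpa using h3.mul_left h1.inv_left
  obtain ⟨s, hs, s1, s2⟩ : ∃ s ∈ R, Commute x s ∧ ¬ Commute y s := by
    obtain ⟨r, hr, r1⟩ : ∃ r ∈ R, ¬ Commute x r := by
      by_contra! h
      exact hxZ ⟨hx.1, fun r hr => (h r hr).symm.eq⟩
    by_cases r2 : Commute (x * y) r
    · exact ⟨_, c.nb r hr, (t3 r).2 r2, fun h => r1 ((t1 r).1 h)⟩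
    · have r3 : Commute y r := by
        have := k.two_nc (r := r) (r' := r) hx hr hr r1 r1
        by_contra r3
        apply r2
        change x * y * r = r * (x * y)
        rw [mul_assoc, k.nc hy hr r3, ← mul_assoc, ← mul_assoc, k.nc hx hr r1, mul_assoc _ z,
          ← Zc.cm k.hz hy.1, mul_assoc, mul_assoc y, k.sq k.hz]
        group
      refine ⟨r * (b * r * b⁻¹), mul_mem hr (c.nb r hr),
        k.two_nc hx hr (c.nb r hr) r1 fun h => r2 ((t3 r).1 h), fun h => r1 ((t1 r).1 ?_)⟩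
      simpa only [inv_mul_cancel_left] using r3.inv_right.mul_right h
  set s' := b * s * b⁻¹ with hs'
  have ms' : s' ∈ R := c.nb s hs
  have s3 : Commute y s' := (t1 s).2 s1
  have s4 : ¬ Commute x s' := fun h => lx s s1 s2 ((t3 s).1 h)
  set A : Subgroup S := centralizer {y} ⊓ (centralizer {x} ⊓ R) with hA
  have mA : ∀ a, a ∈ A ↔ a ∈ R ∧ Commute x a ∧ Commute y a := fun a => by
    simp only [hA, mem_inf, mem_centralizer_singleton_iff]
    exact ⟨fun h => ⟨h.2.2, h.2.1.symm, h.1.symm⟩, fun h => ⟨h.2.2.symm, h.2.1.symm, h.1⟩⟩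
  have cl : A ≤ closure {x, y, z} := fun a ha =>
    cent_le c k hz q hx hy hs s1 s2 ((mA a).1 ha).1 ((mA a).1 ha).2.1.symm ((mA a).1 ha).2.2.symm
  have AZ : A ≤ Z2 R := cl.trans ((closure_le _).2 (by
    rintro _ (rfl | rfl | rfl)
    exacts [hx, hy, Zc_le_Z2 k.hz]))
  have Acm : ∀ a ∈ A, ∀ a' ∈ A, a' * a = a * a' := fun a ha a' ha' => by
    have : closure {x, y, z} ≤ centralizer {a} := (closure_le _).2 (by
      rintro _ (rfl | rfl | rfl) <;> refine mem_centralizer_singleton_iff.2 ?_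
      exacts [((mA a).1 ha).2.1, ((mA a).1 ha).2.2, (Zc.cm k.hz ((mA a).1 ha).1).symm])
    exact mem_centralizer_singleton_iff.1 (this (cl ha'))
  have mx : x ∈ A := (mA x).2 ⟨hx.1, Commute.refl x, q.cm.symm⟩
  have my : y ∈ A := (mA y).2 ⟨hy.1, q.cm, Commute.refl y⟩
  have mz : z ∈ A := (mA z).2 ⟨k.hz.1, Zc.cm k.hz hx.1, Zc.cm k.hz hy.1⟩
  have Asq : ∀ a ∈ A, a * a = 1 := fun a ha => by
    have cl' : closure {x, y, z} ≤ A := (closure_le _).2 (by
      rintro _ (rfl | rfl | rfl)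
      exacts [mx, my, mz])
    refine closure_induction (p := fun a _ => a * a = 1) ?_ (one_mul 1) (fun u w hu hw h1 h2 => ?_)
      (fun u _ h => by rw [← mul_inv_rev, h, inv_one]) (cl ha)
    · rintro _ (rfl | rfl | rfl)
      exacts [q.sq, q.ysq, k.sq k.hz]
    · rw [Commute.mul_mul_mul_comm (Acm _ (cl' hu) _ (cl' hw)), h1, h2, one_mul]
  have gen : ∀ H : Subgroup S, A ≤ H → s ∈ H → s' ∈ H → R ≤ H := fun H h1 h2 h3 r hr => by
    by_cases r1 : Commute x r <;> by_cases r2 : Commute y r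
    · exact h1 ((mA r).2 ⟨hr, r1, r2⟩)
    · exact (mul_mem_cancel_left h2).1 (h1 ((mA _).2
        ⟨mul_mem hs hr, s1.mul_right r1, k.two_nc hy hs hr s2 r2⟩))
    · exact (mul_mem_cancel_left h3).1 (h1 ((mA _).2
        ⟨mul_mem ms' hr, k.two_nc hx ms' hr s4 r1, s3.mul_right r2⟩))
    · refine (mul_mem_cancel_left h3).1 ((mul_mem_cancel_left h2).1 (h1 ((mA _).2
        ⟨mul_mem hs (mul_mem ms' hr), s1.mul_right (k.two_nc hx ms' hr s4 r1),
          k.two_nc hy hs (mul_mem ms' hr) s2 fun h => r2 ?_⟩)))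
      simpa only [inv_mul_cancel_left] using s3.inv_right.mul_right h
  have nz : ∀ g ∈ R, Commute x g → ¬ Commute y g →
      g * (b * g * b⁻¹) * (b * (b * g * b⁻¹) * b⁻¹) ∈ Zc R := fun g hg g1 g2 => by
    have m1 := c.nb g hg
    have m2 := c.nb _ m1
    have g3 : Commute y (b * g * b⁻¹) := (t1 g).2 g1
    have g4 : ¬ Commute x (b * g * b⁻¹) := fun h => lx g g1 g2 ((t3 g).1 h)
    refine k.nrm hg (AZ ((mA _).2 ⟨mul_mem (mul_mem hg m1) m2, ?_,
      k.two_nc hy (mul_mem hg m1) m2 (fun h => g2 ?_) fun h => g4 ((t1 _).1 h)⟩))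
    · rw [mul_assoc]
      exact g1.mul_right (k.two_nc hx m1 m2 g4 fun h => g4 (ly _ g3 ((t3 _).1 h)))
    · simpa only [mul_inv_cancel_right] using h.mul_right g3.inv_right
  have sZ : s ∈ Z2 R := ⟨hs, fun r hr => (gen (Cz' R s) (fun a ha => ⟨((mA a).1 ha).1, ?_⟩)
      ⟨hs, 1, one_mem _, by rw [mul_one]⟩ ⟨ms', ?_⟩ hr).2⟩
  rotate_left
  · obtain ⟨t, ht, e⟩ := (AZ ha).2 s hs
    exact ⟨t⁻¹, inv_mem ht, by rw [e, mul_inv_cancel_right]⟩
  · have n1 := nz s hs s1 s2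
    have n2 := nz s⁻¹ (inv_mem hs) s1.inv_right fun h => s2 (by simpa using h.inv_right)
    refine ⟨_, mul_mem n1 n2, ?_⟩
    rw [← mul_assoc (s' * s), Zc.cm n1 (mul_mem ms' hs), hs']
    group
  have RZ : R ≤ Z2 R := gen _ AZ sZ (k.z2b sZ)
  have cZ : Nat.card (Zc R) = 2 := by
    have : (Zc R : Set S) = {1, z} := Set.ext fun t => ⟨k.all t, by
      rintro (rfl | rfl)
      exacts [one_mem _, k.hz]⟩
    rw [← SetLike.coe_sort_coe, this, Nat.card_coe_set_eq, Set.ncard_pair k.z1.symm]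
  have two : ∀ u ∈ R, ∀ H ≤ R, ∀ a ∈ H, ¬ Commute u a →
      Nat.card H = 2 * Nat.card ↥(centralizer {u} ⊓ H) := fun u hu H hH a ha h =>
    card_two_mul ha (fun h' => h (mem_centralizer_singleton_iff.1 h').symm) fun w hw h' =>
      mem_centralizer_singleton_iff.2 (k.two_nc (RZ hu) (hH hw) (hH ha)
        (fun h => h' (mem_centralizer_singleton_iff.2 h.symm)) h).symm
  have AR : A ≤ R := fun a ha => ((mA a).1 ha).1
  have cA : Nat.card A = 8 := by
    have e : centralizer {s'} ⊓ (centralizer {s} ⊓ A) = Zc R := by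
      refine le_antisymm (fun a ⟨a1, a2, a3⟩ => ⟨AR a3, fun r hr => ?_⟩) fun t ht =>
        ⟨mem_centralizer_singleton_iff.2 (Zc.cm ht ms').symm,
          mem_centralizer_singleton_iff.2 (Zc.cm ht hs).symm,
          (mA t).2 ⟨ht.1, Zc.cm ht hx.1, Zc.cm ht hy.1⟩⟩
      exact mem_centralizer_singleton_iff.1 (gen (centralizer {a})
        (fun a' ha' => mem_centralizer_singleton_iff.2 (Acm a a3 a' ha'))
        (mem_centralizer_singleton_iff.2 (mem_centralizer_singleton_iff.1 a2).symm)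
        (mem_centralizer_singleton_iff.2 (mem_centralizer_singleton_iff.1 a1).symm) hr)
    rw [two s hs A AR y my fun h => s2 h.symm, two s' ms' _ (inf_le_right.trans AR) x
      ⟨mem_centralizer_singleton_iff.2 s1, mx⟩ fun h => s4 h.symm, e, cZ]
  refine ⟨PGrp.isExtraspecial_iff.2 ⟨k.p2, cZ, le_antisymm (commutator_le.2 fun u hu r hr => ?_)
    fun t ht => ?_, fun u hu => by rw [pow_two]; exact (k.sq2 (RZ hu)).2⟩, ?_, A, AR,
    ⟨⟨⟨fun a a' => Subtype.ext (Acm _ a'.2 _ a.2)⟩⟩, fun a ha => by rw [pow_two, Asq a ha]⟩, cA⟩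
  · obtain ⟨t, ht, e⟩ := (RZ hu).2 r hr
    rw [commutatorElement_def, e, Zc.cm ht (mul_mem hr hu)]
    simpa [mul_assoc] using ht
  · rcases k.all t ht with rfl | rfl
    · exact one_mem _
    · have := commutator_mem_commutator (inv_mem hx.1) (inv_mem ms')
      rwa [commutatorElement_def, inv_inv, inv_inv, mul_assoc, k.nc hx ms' s4,
        show x⁻¹ * s'⁻¹ * (s' * x * t) = t by group] at this
  · rw [two x hx.1 R le_rfl s' ms' s4, two y hy.1 _ inf_le_right s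
      ⟨mem_centralizer_singleton_iff.2 s1.symm, hs⟩ s2, ← hA, cA]

theorem two_struct (c : Rx ρ b R) (p2 : IsPGroup 2 R) (q : Four b x y) (hx : x ∈ R) (hy : y ∈ R) :
    (IsElementaryAbelian 2 R ∧ Nat.card R = 4) ∨ (IsExtraspecial 2 R ∧ Nat.card R = 32 ∧
      ∃ A : Subgroup S, A ≤ R ∧ IsElementaryAbelian 2 A ∧ Nat.card A = 8) := by
  haveI : Fact (Nat.Prime 2) := ⟨Nat.prime_two⟩
  by_cases h : ∀ t ∈ Zc R, b * t = t * b
  · right
    obtain ⟨e, f⟩ := c.toCx.frame q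
    have h1 : ∀ t ∈ Zc R, t = 1 ∨ ∀ v ∈ cm ρ R, ρ t v = -v := fun t ht =>
      c.cent f hx hy ht.1 (fun r hr => (Zc.cm ht hr).symm) (h t ht).symm
    obtain ⟨⟨z, hz⟩, z1⟩ := ne_bot_iff_exists_ne_one.1 (Core.inf_centralizer_ne_bot_of_isPGroup p2 p2
      le_normalizer fun e => q.ne (mem_bot.1 (e ▸ hx)))
    replace z1 : z ≠ 1 := fun e => z1 (Subtype.ext e)
    have h2 := (h1 z hz).resolve_left z1
    have k : Zx b R z := ⟨c.b3, c.gen, c.nb, p2, hz, z1, h z hz, fun t ht =>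
      (h1 t ht).imp_right fun h3 => by
        have := c.faith' (mul_mem (inv_mem hz.1) ht.1) fun v hv => by
          rw [act_mul, h3 v hv, ← h2 v hv, act_inv]
        exact (inv_mul_eq_one.1 this).symm⟩
    obtain ⟨x', a1, a2, a3⟩ := k.exists_four2 q hx hy
    exact case_two c k h2 a3 a1 a2
  · left
    push Not at h
    obtain ⟨t, ht, h⟩ := h
    have nb : ∀ a ∈ Zc R, b * a * b⁻¹ ∈ Zc R := fun a ha => ⟨c.nb a ha.1, fun r hr => by
      have hb : b⁻¹ = b * b := inv_eq_of_mul_eq_one_left c.b3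
      have := c.nb _ (c.nb r hr)
      rw [show b * (b * r * b⁻¹) * b⁻¹ = (b * b) * r * (b * b)⁻¹ by group, ← hb, inv_inv] at this
      calc r * (b * a * b⁻¹) = b * (b⁻¹ * r * b * a) * b⁻¹ := by group
        _ = _ := by rw [Zc.cm ha this]; group⟩
    obtain ⟨x', a1, y', a2, a3⟩ := exists_four (A := Zc R) (fun a ha a' ha' => Zc.cm ha' ha.1)
      (p2.to_le inf_le_left) nb c.b3 ht h
    exact case_one c a3 a1 a2

end Cfsg.Agent.Cub
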