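import Cfsg.Agent.Cub.D
import Cfsg.Agent.PGrp.Aut
import Cfsg.Agent.Transfer.SylowConj
import Cfsg.Agent.Core.Product
import Cfsg.Agent.Core.PConstrained

/-! `b` centralizes every invariant subgroup of odd prime power order prime to three. -/

set_option autoImplicit false
set_option linter.unusedSectionVars false

namespace Cfsg.Agent.Cub

open Subgroup Module
open scoped commutatorElement

variable {S : Type*} [Group S] {E : Type*} [AddCommGroup E] [Module (ZMod 3) E]
  {ρ : Representation (ZMod 3) S E} {b x y d g : S} {e v : E} {K A T : Subgroup S}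
  {N : Submodule (ZMod 3) E} [Finite S] [Finite E]

theorem one_of_cube (hK : (Nat.card K).Coprime 3) (hg : g ∈ K) (h : g ^ 3 = 1) : g = 1 :=
  orderOf_eq_one_iff.1 (Nat.eq_one_of_dvd_coprimes hK (orderOf_dvd_natCard K hg)
    (orderOf_dvd_of_pow_eq_one h))

theorem Cx.unip (c : Cx ρ b) (h1 : g ∈ Mover ρ N) (h2 : g ∈ Fixer ρ N) : g ^ 3 = 1 := by
  refine c.one fun v => ?_
  have h := h2 _ (h1 v)
  have h' := congrArg (ρ g) h
  rw [map_sub] at h h'
  rw [map_sub] at h'
  rw [pow_three, act_mul, act_mul]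
  linear_combination (norm := abel) h' + h + h + three (ρ g v - v)

theorem Cx.card_dvd (c : Cx ρ b) (hK : (Nat.card K).Coprime 3) (h : K ≤ Mover ρ N) :
    (finrank (ZMod 3) N ≤ 4 → Nat.card K ∣ 33280) ∧
    (finrank (ZMod 3) N ≤ 5 → Nat.card K ∣ 8053760) := by
  let φ : K →* Module.End (ZMod 3) N :=
    { toFun := fun k => (ρ k).restrict fun v hv => Mover.inv (h k.2) hv
      map_one' := by ext v; simp
      map_mul' := fun a a' => by ext v; simp }
  have hφ : Function.Injective φ := (injective_iff_map_eq_one φ).2 fun k hk => Subtype.ext <|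
    one_of_cube hK k.2 (c.unip (h k.2) fun v hv =>
      congrArg Subtype.val (LinearMap.congr_fun hk ⟨v, hv⟩))
  have := PGrp.card_dvd_card_GL
    ((LinearMap.toMatrixAlgEquiv (finBasis (ZMod 3) N)).toMonoidHom.comp φ)
    ((LinearMap.toMatrixAlgEquiv (finBasis (ZMod 3) N)).injective.comp hφ)
  rw [Matrix.card_GL_field, ZMod.card] at this
  generalize finrank (ZMod 3) N = n at this
  refine ⟨fun hn => (hK.pow_right 6).dvd_of_dvd_mul_left (this.trans ?_),
    fun hn => (hK.pow_right 10).dvd_of_dvd_mul_left (this.trans ?_)⟩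
  all_goals interval_cases n <;> simp [Fin.prod_univ_succ]

theorem normal13 {G : Type*} [Group G] [Finite G] [Group.IsSolvable G] (h : Nat.card G ∣ 8053760)
    {T : Subgroup G} (hT : Nat.card T = 13) : T.Normal := by
  haveI : Fact (Nat.Prime 13) := ⟨by norm_num⟩
  have hp : IsPGroup 13 T := IsPGroup.of_card (n := 1) hT
  have h13 : pCore 13 G ≤ T := by
    obtain ⟨n, hn⟩ := ((Core.pCore_isPGroup 13).to_sup_of_normal_left hp).exists_card_eq
    have h1 : 13 ^ n ∣ 8053760 := hn ▸ (card_subgroup_dvd_card _).trans h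
    have h2 : n ≤ 1 := by
      by_contra! h2
      exact absurd ((pow_dvd_pow 13 h2).trans h1) (by norm_num)
    refine le_sup_left.trans (eq_of_le_of_card_ge (le_sup_right : T ≤ pCore 13 G ⊔ T) ?_).ge
    rw [hn, hT]
    exact (Nat.pow_le_pow_right (by norm_num) h2).trans (by norm_num)
  have hc : IsCyclic T := isCyclic_of_prime_card hT
  have : T ≤ centralizer (fittingSubgroup G : Set G) := by
    rw [le_centralizer_iff, Core.fitting_eq_iSup_pCore]
    refine iSup_le fun ⟨p, pp⟩ => ?_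
    by_cases e : p = 13
    · subst e
      exact h13.trans (le_centralizer _)
    haveI := Fact.mk pp
    have h1 := Transfer.card_modEq_card_inf_centralizer (Q := pCore p G) hp le_normalizer_of_normal
    obtain ⟨i, hi⟩ := (Core.pCore_isPGroup (G := G) p).exists_card_eq
    obtain ⟨j, hj, hj'⟩ := (Nat.dvd_prime_pow pp).1
      (hi ▸ card_dvd_of_le (inf_le_left : pCore p G ⊓ centralizer (T : Set G) ≤ _))
    have h2 : p ^ i ∣ 8053760 := hi ▸ (card_subgroup_dvd_card _).trans h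
    suffices i ≤ j from (eq_of_le_of_card_ge (inf_le_left : pCore p G ⊓ centralizer (T : Set G) ≤ _)
      (by rw [hi, hj']; exact Nat.pow_le_pow_right pp.pos this)).ge.trans inf_le_right
    by_contra! hij
    rw [hi, hj'] at h1
    have h3 : p ∣ 2 ^ 10 * 5 * 11 ^ 2 * 13 := (dvd_pow_self p (by omega)).trans h2
    simp only [pp.dvd_mul] at h3
    have bd : ∀ k, ¬ p ^ (k + 1) ∣ 8053760 → i ≤ k := fun k hk => by
      by_contra! h4
      exact hk ((pow_dvd_pow p h4).trans h2)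
    rcases h3 with ((h3 | h3) | h3) | h3
    · obtain rfl := (Nat.prime_dvd_prime_iff_eq pp Nat.prime_two).1 (pp.dvd_of_dvd_pow h3)
      have := bd 10 (by norm_num)
      interval_cases i <;> interval_cases j <;> simp [Nat.ModEq] at h1
    · obtain rfl := (Nat.prime_dvd_prime_iff_eq pp Nat.prime_five).1 h3
      have := bd 1 (by norm_num)
      interval_cases i <;> interval_cases j <;> simp [Nat.ModEq] at h1
    · obtain rfl := (Nat.prime_dvd_prime_iff_eq pp Nat.prime_eleven).1 (pp.dvd_of_dvd_pow h3)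
      have := bd 2 (by norm_num)
      interval_cases i <;> interval_cases j <;> simp [Nat.ModEq] at h1
    · exact e ((Nat.prime_dvd_prime_iff_eq pp (by norm_num)).1 h3)
  rw [le_antisymm (Core.le_pCore_of_le_fitting hp (this.trans Core.centralizer_fitting_le)) h13]
  infer_instance

theorem zp_of_prime {p : ℕ} (hp : p.Prime) (hT : Nat.card T = p) (hd : d ∈ T) (h : d ≠ 1) :
    T = zpowers d := by
  refine (eq_of_le_of_card_ge (zpowers_le.2 hd) ?_).symm
  rw [Nat.card_zpowers, hT, ((Nat.dvd_prime hp).1 (hT ▸ orderOf_dvd_natCard T hd)).resolve_left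
    (mt orderOf_eq_one_iff.1 h)]

theorem cyc_comm {h : S} (h1 : g * d * g⁻¹ ∈ zpowers d) (h2 : h * d * h⁻¹ ∈ zpowers d) :
    Commute ((h * g)⁻¹ * (g * h)) d := by
  obtain ⟨i, hi⟩ := h1
  obtain ⟨j, hj⟩ := h2
  simp only at hi hj
  have : g * h * d * (g * h)⁻¹ = h * g * d * (h * g)⁻¹ := by
    calc _ = g * (h * d * h⁻¹) * g⁻¹ := by group
      _ = h * (g * d * g⁻¹) * h⁻¹ := by
        rw [← hj, ← hi, ← conj_zpow, ← conj_zpow, ← hi, ← hj, ← zpow_mul, ← zpow_mul, mul_comm]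
      _ = _ := by group
  change _ = _
  calc _ = (h * g)⁻¹ * (g * h * d * (g * h)⁻¹) * (g * h) := by group
    _ = _ := by rw [this]; group

theorem Cx.odd [Group.IsSolvable S] (c : Cx ρ b) (q : Four b x y) (hK : (Nat.card K).Coprime 3)
    (hx : x ∈ K) (hy : y ∈ K) (hA : A ≤ K) {r : ℕ} (hr : r.Prime) (h2 : r ≠ 2) (hp : IsPGroup r A)
    (hb : ∀ a ∈ A, b * a * b⁻¹ ∈ A) {a : S} (ha : a ∈ A) : b * a = a * b := by
  haveI := Fact.mk hr
  haveI : Fact (Nat.Prime 3) := ⟨Nat.prime_three⟩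
  by_contra hne
  obtain ⟨e, f⟩ := c.frame q
  set W := LinearMap.range (ρ b - 1) with hW
  set N := W ⊔ W.map (ρ a) with hN
  have r4 : finrank (ZMod 3) N ≤ 4 := (Submodule.finrank_add_le_finrank_add_finrank _ _).trans
    (add_le_add c.rk ((Submodule.finrank_map_le _ _).trans c.rk))
  have m1 : b ∈ Mover ρ N := fun v => Submodule.mem_sup_left ⟨v, rfl⟩
  have m2 : a * b * a⁻¹ ∈ Mover ρ N := fun v => Submodule.mem_sup_right
    ⟨_, ⟨ρ a⁻¹ v, rfl⟩, by simp [act_mul, act_inv']⟩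
  set T := A ⊓ Mover ρ N with hT
  have m3 : a * b * a⁻¹ * b⁻¹ ∈ T := mem_inf.2 ⟨by
    rw [mul_assoc a, mul_assoc a]; exact mul_mem ha (hb _ (inv_mem ha)), mul_mem m2 (inv_mem m1)⟩
  have nT : ∀ t ∈ T, b * t * b⁻¹ ∈ T := fun t ht =>
    mem_inf.2 ⟨hb t ht.1, mul_mem (mul_mem m1 (mem_inf.1 ht).2) (inv_mem m1)⟩
  have b3 : b ^ 3 = 1 := by rw [pow_three, ← mul_assoc, c.b3]
  have nc : ¬ Commute (a * b * a⁻¹ * b⁻¹) b := fun h => hne <| by
    have h1 : Commute (a * b * a⁻¹) b⁻¹ := by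
      simpa using (h.mul_left (Commute.refl b)).inv_right
    have := one_of_cube hK (hA m3.1) (by rw [h1.mul_pow, conj_pow, inv_pow, b3]; group)
    rw [mul_inv_eq_one, mul_inv_eq_iff_eq_mul] at this
    exact this.symm
  have cT : (Nat.card T).Coprime 3 := hK.of_dvd_left (card_dvd_of_le (inf_le_left.trans hA))
  have d1 := (c.card_dvd cT inf_le_right).1 r4
  obtain ⟨k, hk⟩ := (hp.to_le (inf_le_left : T ≤ A)).exists_card_eq
  have n1 : a * b * a⁻¹ * b⁻¹ ≠ 1 := fun h => nc (h ▸ Commute.one_left b)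
  have k0 : k ≠ 0 := by
    rintro rfl
    exact n1 (mem_bot.1 (card_eq_one.1 hk ▸ m3))
  rw [hk] at d1
  have h3 : r ∣ 2 ^ 9 * 5 * 13 := (dvd_pow_self r k0).trans d1
  simp only [hr.dvd_mul] at h3
  have bd : ¬ r ^ 2 ∣ 33280 → Nat.card T = r := fun h => by
    have : k = 1 := by
      by_contra h4
      exact h ((pow_dvd_pow r (by omega)).trans d1)
    rw [hk, this, pow_one]
  rcases h3 with (h3 | h3) | h3
  · exact h2 ((Nat.prime_dvd_prime_iff_eq hr Nat.prime_two).1 (hr.dvd_of_dvd_pow h3))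
  · obtain rfl := (Nat.prime_dvd_prime_iff_eq hr Nat.prime_five).1 h3
    have h5 := bd (by norm_num)
    have hB : IsPGroup 3 (zpowers b) := IsPGroup.of_card_dvd_pow (n := 1)
      (by rw [Nat.card_zpowers, pow_one]; exact orderOf_dvd_of_pow_eq_one b3)
    have h1 := Transfer.card_modEq_card_inf_centralizer (Q := T) hB
      (zpowers_le.2 (mem_normalizer_fintype nT))
    rcases (Nat.dvd_prime hr).1 (h5 ▸ card_dvd_of_le
      (inf_le_left : T ⊓ centralizer (zpowers b : Set S) ≤ _)) with h6 | h6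
    · rw [h5, h6] at h1; simp [Nat.ModEq] at h1
    · have := (eq_of_le_of_card_ge (inf_le_left : T ⊓ centralizer (zpowers b : Set S) ≤ _)
        (h5.trans h6.symm).le).ge m3
      exact nc (this.2 b (mem_zpowers b)).symm
  · obtain rfl := (Nat.prime_dvd_prime_iff_eq hr (by norm_num : Nat.Prime 13)).1 h3
    have h13 := bd (by norm_num)
    set N' := N ⊔ Submodule.span (ZMod 3) {e} with hN'
    have r5 : finrank (ZMod 3) N' ≤ 5 := (Submodule.finrank_add_le_finrank_add_finrank _ _).trans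
      (add_le_add r4 (finrank_span_singleton f.ne).le)
    have m4 : b ∈ Mover ρ N' := fun v => Submodule.mem_sup_left (m1 v)
    have e0 : e ∈ N' := Submodule.mem_sup_right (Submodule.mem_span_singleton_self e)
    have mv := f.mv c e0 (Mover.inv m4 e0) (Mover.inv m4 (Mover.inv m4 e0))
    set Y := K ⊓ Mover ρ N' with hY
    have TY : T ≤ Y := fun t ht => ⟨hA ht.1, fun v => Submodule.mem_sup_left (ht.2 v)⟩
    have hn : (T.subgroupOf Y).Normal := normal13 ((c.card_dvd (hK.of_dvd_left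
      (card_dvd_of_le inf_le_left)) inf_le_right).2 r5) (by rw [Core.card_subgroupOf_of_le TY, h13])
    have nY : ∀ g ∈ Y, ∀ t ∈ T, g * t * g⁻¹ ∈ T := fun g hg t ht =>
      hn.conj_mem ⟨t, TY ht⟩ ht ⟨g, hg⟩
    generalize a * b * a⁻¹ * b⁻¹ = t at m3 nc n1
    have n2 : t * t ≠ 1 := fun h => n1 <| orderOf_eq_one_iff.1 <| Nat.eq_one_of_dvd_coprimes
      (by norm_num : Nat.Coprime 13 2) (h13 ▸ orderOf_dvd_natCard T m3)
      (orderOf_dvd_of_pow_eq_one (by rw [pow_two, h]))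
    have z1 := zp_of_prime hr h13 m3 n1
    have z2 := zp_of_prime hr h13 (mul_mem m3 m3) n2
    have c1 : ∀ x y, Four b x y → x ∈ Y → Commute y t := fun x y q hx => by
      have := cyc_comm (z1 ▸ nY x hx t m3) (z1 ▸ nT t m3)
      rwa [← q.hxy, mul_inv_rev, show x⁻¹ * b⁻¹ * (b * (x * y)) = y by group] at this
    have mx : x ∈ Y := ⟨hx, fun v => (mv v).2.1⟩
    have my : y ∈ Y := ⟨hy, fun v => (mv v).2.2⟩
    have cy := c1 x y q mx
    have cx := c1 _ _ q.rot.rot (mul_mem mx my)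
    rw [q.yxy] at cx
    have fx : ∀ w, (ρ t w = w ∨ ρ t w = -w) → w ∈ LinearMap.ker (ρ (t * t) - 1) := by
      rintro w (h | h) <;> simp [act_mul, h]
    have m5 : b ∈ Mover ρ (LinearMap.ker (ρ (t * t) - 1)) := fun v => (f.mv c
      (fx _ (f.sign cx.symm cy.symm)) (fx _ (f.sign1 cx.symm cy.symm))
      (fx _ (f.sign2 cx.symm cy.symm)) v).1
    have m6 : T ≤ Fixer ρ (LinearMap.ker (ρ (t * t) - 1)) := z2 ▸ zpowers_le.2 fun v hv => by
      simpa [sub_eq_zero] using hv
    have m7 : t * b * t⁻¹ * b⁻¹ ∈ T := by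
      rw [mul_assoc t, mul_assoc t]; exact mul_mem m3 (nT _ (inv_mem m3))
    have := one_of_cube hK (TY m7).1 (c.unip (mul_mem (fun v => ?_) (inv_mem m5)) (m6 m7))
    · rw [mul_inv_eq_one, mul_inv_eq_iff_eq_mul] at this
      exact nc this
    · have h1 := m5 (ρ t⁻¹ v)
      rwa [← m6 m3 _ h1, map_sub, act_inv', ← act_mul, ← act_mul] at h1

theorem Cx.two [Group.IsSolvable S] (c : Cx ρ b) (q : Four b x y) [K.Normal]
    (hK : (Nat.card K).Coprime 3) (hx : x ∈ K) (hy : y ∈ K) : IsPGroup 2 ↥⁅K, zpowers b⁆ := by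
  have b3 : b ^ 3 = 1 := by rw [pow_three, ← mul_assoc, c.b3]
  have cop : (Nat.card (zpowers b)).Coprime (Nat.card K) := hK.symm.of_dvd_left
    (by rw [Nat.card_zpowers]; exact orderOf_dvd_of_pow_eq_one b3)
  have syl := Core.exists_invariant_isSylowOf (zpowers b) K le_normalizer_of_normal cop
    (Or.inl inferInstance)
  haveI : Fact (Nat.Prime 2) := ⟨Nat.prime_two⟩
  obtain ⟨P, hP, hP'⟩ := syl 2
  have : (P.relIndex K).Coprime ((centralizer {b}).relIndex K) :=
    Nat.coprime_of_dvd fun r hr h1 h2 => by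
      haveI := Fact.mk hr
      obtain ⟨A, hA, hA'⟩ := syl r
      refine hA.not_dvd (h2.trans (relIndex_dvd_of_le_left K fun a ha => ?_))
      exact mem_centralizer_singleton_iff.2 (c.odd q hK hx hy hA.le hr
        (fun e => hP.not_dvd (e ▸ h1)) hA.isPGroup
        (fun a ha => (mem_normalizer_iff.1 (hA' (mem_zpowers b)) a).1 ha) ha).symm
  refine hP.isPGroup.to_le (commutator_le.2 fun k hk g hg => ?_)
  obtain ⟨s, hs, d, hd, rfl⟩ := Core.exists_mul_of_coprime_relIndex this k hk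
  obtain ⟨i, rfl⟩ := hg
  have : Commute d (b ^ i) := Commute.zpow_right (mem_centralizer_singleton_iff.1 hd) i
  have h1 := (mem_normalizer_iff.1 (hP' (zpow_mem_zpowers b i)) _).1 (inv_mem hs)
  convert mul_mem hs h1 using 1
  simp only [commutatorElement_def]
  rw [mul_assoc s, this.eq]; group

theorem main [Group.IsSolvable S] (hfaith : Function.Injective ρ)
    (B : Subgroup S) (hB : Nat.card ↥B = 3) (b : S) (hb : Subgroup.zpowers b = B)
    (E₀ E₁ : Submodule (ZMod 3) E) (hE01' : E₀ ⊔ E₁ = ⊤)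
    (hE1 : ∀ v ∈ E₁, ρ b v = v) (hE0inv : ∀ v ∈ E₀, ρ b v ∈ E₀) (hE0 : Nat.card ↥E₀ = 27)
    (hind : ∃ v ∈ E₀, ρ b (ρ b v - v) - (ρ b v - v) ≠ 0)
    (Q : Subgroup S) (hQ : Cfsg.IsElementaryAbelian 2 Q)
    (hBQ : B ≤ Subgroup.normalizer (Q : Set S)) (hBQ' : ¬ B ≤ Subgroup.centralizer (Q : Set S))
    (P : Sylow 3 S) (hBZ : (Subgroup.center ↥(P : Subgroup S)).map (P : Subgroup S).subtype = B) :
    ∃ x y, Four b x y ∧ x ∈ ⁅pPrimeCore 3 S, B⁆ ∧ y ∈ ⁅pPrimeCore 3 S, B⁆ ∧
      Rx ρ b ⁅pPrimeCore 3 S, B⁆ ∧ IsPGroup 2 ↥⁅pPrimeCore 3 S, B⁆ := by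
  haveI : Fact (Nat.Prime 3) := ⟨Nat.prime_three⟩
  subst hb
  have b3 : b * b * b = 1 := by
    rw [Nat.card_zpowers] at hB
    rw [mul_assoc, ← pow_three, ← hB, pow_orderOf_eq_one]
  have c : Cx ρ b := ⟨hfaith, b3, by
    have h1 : ∀ v ∈ E₀, (ρ b - 1) v ∈ E₀ := fun v hv => sub_mem (hE0inv v hv) hv
    have h2 : finrank (ZMod 3) E₀ = 3 := by
      rw [Module.natCard_eq_pow_finrank (K := ZMod 3), Nat.card_zmod] at hE0
      exact Nat.pow_right_injective (by norm_num : 2 ≤ 3) hE0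
    have h3 : LinearMap.range (ρ b - 1) = LinearMap.range ((ρ b - 1).domRestrict E₀) := by
      refine le_antisymm ?_ (LinearMap.range_domRestrict_le_range _ _)
      rintro _ ⟨v, rfl⟩
      obtain ⟨u, hu, w, hw, rfl⟩ := Submodule.mem_sup.1 (hE01'.ge (Submodule.mem_top (x := v)))
      exact ⟨⟨u, hu⟩, by simp [hE1 w hw]⟩
    have h4 := ((ρ b - 1).domRestrict E₀).finrank_range_add_finrank_ker
    obtain ⟨v, hv, h5⟩ := hind
    have h6 : finrank (ZMod 3) (LinearMap.ker ((ρ b - 1).domRestrict E₀)) ≠ 0 := by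
      rw [Ne, Submodule.finrank_eq_zero, LinearMap.ker_eq_bot']
      intro h
      refine h5 (congrArg Subtype.val (h ⟨_, h1 _ (h1 v hv)⟩ ?_))
      have : ρ b (ρ b (ρ b v)) = v := by rw [← act_mul, ← act_mul, b3, act_one]
      simp only [LinearMap.domRestrict_apply, LinearMap.sub_apply, Module.End.one_apply, map_sub,
        this]
      linear_combination (norm := abel) three (ρ b v - ρ b (ρ b v))
    rw [h3]; omega⟩
  obtain ⟨u, hu, h⟩ : ∃ u ∈ Q, b * u ≠ u * b := by
    by_contra! h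
    exact hBQ' (zpowers_le.2 fun u hu => (h u hu).symm)
  obtain ⟨x, hx, y, hy, q⟩ := exists_four (A := Q)
    (fun a ha a' ha' => congrArg Subtype.val (hQ.1.is_comm.comm (⟨a, ha⟩ : Q) ⟨a', ha'⟩))
    (fun a => ⟨1, Subtype.ext (by simpa using hQ.2 a a.2)⟩)
    (fun a ha => (mem_normalizer_iff.1 (hBQ (mem_zpowers b)) a).1 ha) b3 hu h
  have hK := Core.pPrimeCore_coprime (G := S) 3
  have e : ∀ x y, Four b x y → x * y = ⁅x, b⁆ := fun x y q => by
    rw [commutatorElement_def, inv_eq_of_mul_eq_one_left q.sq, q.y_eq]; group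
  have hbP : b ∈ pPrimePCore 3 S := by
    refine Core.IsPConstrained.centralizer_sylow_le
      (Core.isPConstrained_of_solvable 3 inferInstance) P ?_
    obtain ⟨z, hz, rfl⟩ : b ∈ (center (P : Subgroup S)).map (P : Subgroup S).subtype :=
      hBZ ▸ mem_zpowers b
    exact fun g hg => congrArg Subtype.val (mem_center_iff.1 hz ⟨g, hg⟩)
  have mK : ∀ x y, Four b x y → x * y ∈ pPrimeCore 3 S := fun x y q => by
    refine Core.le_pPrimeCore_of_le_pPrimePCore (Y := zpowers (x * y)) (zpowers_le.2 ?_) ?_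
      (mem_zpowers _)
    · rw [e x y q, commutatorElement_def]
      exact mul_mem (Normal.conj_mem inferInstance b hbP x) (inv_mem hbP)
    · rw [Nat.card_zpowers]
      exact (by norm_num : Nat.Coprime 2 3).of_dvd_left
        (orderOf_dvd_of_pow_eq_one (by rw [pow_two, q.rot.ysq]))
  have kx : x ∈ pPrimeCore 3 S := q.yxy ▸ mK _ _ q.rot
  have ky : y ∈ pPrimeCore 3 S := (mul_mem_cancel_left kx).1 (mK _ _ q)
  have rx : x ∈ ⁅pPrimeCore 3 S, zpowers b⁆ := by
    rw [← q.yxy, e _ _ q.rot]; exact commutator_mem_commutator ky (mem_zpowers b)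
  have rxy : x * y ∈ ⁅pPrimeCore 3 S, zpowers b⁆ := by
    rw [e _ _ q]; exact commutator_mem_commutator kx (mem_zpowers b)
  refine ⟨x, y, q, rx, (mul_mem_cancel_left rx).1 rxy, ⟨c, (BG.Amb.coprime_comm_comm
    le_normalizer_of_normal (hB ▸ hK) (Or.inl inferInstance)).ge, fun r hr => ?_,
    hK.of_dvd_left (card_dvd_of_le (commutator_le_left _ _))⟩, c.two q hK kx ky⟩
  exact (mem_normalizer_iff.1 (Core.le_normalizer_commutator le_normalizer_of_normal
    le_normalizer (mem_zpowers b)) r).1 hr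

end Cfsg.Agent.Cub
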